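import Cfsg.Agent.H28.SmallOrders.Mid.Tools
import Cfsg.Agent.S0997
import Cfsg.Agent.S1001
import Cfsg.Agent.S1010
import Cfsg.Agent.H6.Basic

/-!
# Orders between 1093 and 3640: the short cases
-/

set_option autoImplicit false
set_option synthInstance.maxSize 1024

namespace Cfsg.Agent.H28.Mid

open Subgroup MulAction H28.Range6232

variable {G : Type*} [Group G] [Finite G] [IsSimpleGroup G]

theorem not_1400 (hG : ¬ IsMulCommutative G) (h : Nat.card G = 1400) : False :=
  false_of_square hG 5 56 (by norm_num) (by norm_num) (by rw [h]; norm_num) (by norm_num)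
    (by decide +kernel) (by decide +kernel)

theorem not_1764 (hG : ¬ IsMulCommutative G) (h : Nat.card G = 1764) : False :=
  false_of_square hG 7 36 (by norm_num) (by norm_num) (by rw [h]; norm_num) (by norm_num)
    (by decide +kernel) (by decide +kernel)

theorem not_1800 (hG : ¬ IsMulCommutative G) (h : Nat.card G = 1800) : False :=
  false_of_square hG 5 72 (by norm_num) (by norm_num) (by rw [h]; norm_num) (by norm_num)
    (by decide +kernel) (by decide +kernel)

theorem not_2400 (hG : ¬ IsMulCommutative G) (h : Nat.card G = 2400) : False :=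
  false_of_square hG 5 96 (by norm_num) (by norm_num) (by rw [h]; norm_num) (by norm_num)
    (by decide +kernel) (by decide +kernel)

theorem not_2700 (hG : ¬ IsMulCommutative G) (h : Nat.card G = 2700) : False :=
  false_of_square hG 5 108 (by norm_num) (by norm_num) (by rw [h]; norm_num) (by norm_num)
    (by decide +kernel) (by decide +kernel)

theorem not_2800 (hG : ¬ IsMulCommutative G) (h : Nat.card G = 2800) : False :=
  false_of_square hG 5 112 (by norm_num) (by norm_num) (by rw [h]; norm_num) (by norm_num)
    (by decide +kernel) (by decide +kernel)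

theorem not_3528 (hG : ¬ IsMulCommutative G) (h : Nat.card G = 3528) : False :=
  false_of_square hG 7 72 (by norm_num) (by norm_num) (by rw [h]; norm_num) (by norm_num)
    (by decide +kernel) (by decide +kernel)

theorem not_2100 (hG : ¬ IsMulCommutative G) (h : Nat.card G = 2100) : False := by
  have : Fact (Nat.Prime 5) := ⟨by norm_num⟩
  have h1 : ∀ s ∈ sylowOpts 5 (5 ^ 2 * 84) 84, s = 21 := by decide +kernel
  exact S1010.result (G := G)
    (h1 _ (sylow_options hG 5 2 84 (by rw [h]; norm_num) (by norm_num) (by norm_num)))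

/-- No option with a self-centralising Sylow subgroup. -/
theorem false_of_three_primes (hG : ¬ IsMulCommutative G) (p a b : ℕ) (hp : p.Prime) (hp2 : p ≠ 2)
    (h : Nat.card G = p * 3 ^ a * 2 ^ b) (hm : ¬ p ∣ 3 ^ a * 2 ^ b)
    (hopt : ∀ t ∈ primeOpts p (3 ^ a * 2 ^ b), t.2.2 ≠ 1 ∨
      (¬ 8 ∣ p * 3 ^ a * 2 ^ b ∧ 4 ∣ p * 3 ^ a * 2 ^ b ∧ 4 ∣ t.2.1)) : False := by
  have := Fact.mk hp
  have hcard : Nat.card G = p * (3 ^ a * 2 ^ b) := by rw [h, mul_assoc]
  obtain ⟨hP, n, e, K, hmem, hd⟩ := prime_options hG p _ hp2 hcard hm (default : Sylow p G)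
  obtain ⟨x, hx, hxP⟩ := exists_generator (default : Sylow p G) hP
  have hc := S1001.result (G := G) p a b hp h x hx
  have hC : Nat.card (centralizer (((default : Sylow p G) : Subgroup G) : Set G)) = p := by
    rw [centralizer_of_zpowers hxP, hc, Nat.card_zpowers, hx]
  obtain ⟨-, -, -, -, -, -, -, -, hC', -, -, -⟩ := id hd
  have hK : K = 1 := by
    have : p * 1 = p * K := by rw [mul_one]; exact hC.symm.trans hC'
    exact (Nat.eq_of_mul_eq_mul_left hp.pos this).symm
  rcases hopt _ hmem with h1 | ⟨h8, h4, he⟩
  · exact h1 hK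
  · exact automizer_ne_four hG (h ▸ h4) (h ▸ h8) _ hP hd he

theorem not_1620 (hG : ¬ IsMulCommutative G) (h : Nat.card G = 1620) : False :=
  false_of_three_primes hG 5 4 2 (by norm_num) (by norm_num) (by rw [h]; norm_num) (by norm_num)
    (by decide +kernel)

theorem not_2880 (hG : ¬ IsMulCommutative G) (h : Nat.card G = 2880) : False :=
  false_of_three_primes hG 5 2 6 (by norm_num) (by norm_num) (by rw [h]; norm_num) (by norm_num)
    (by decide +kernel)

theorem not_3024 (hG : ¬ IsMulCommutative G) (h : Nat.card G = 3024) : False :=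
  false_of_three_primes hG 7 3 4 (by norm_num) (by norm_num) (by rw [h]; norm_num) (by norm_num)
    (by decide +kernel)

theorem not_3240 (hG : ¬ IsMulCommutative G) (h : Nat.card G = 3240) : False :=
  false_of_three_primes hG 5 4 3 (by norm_num) (by norm_num) (by rw [h]; norm_num) (by norm_num)
    (by decide +kernel)

/-- A large prime with a small cofactor. -/
theorem false_of_cofactor (hG : ¬ IsMulCommutative G) (p q b g : ℕ) (hp : p.Prime) (hq : q.Prime)
    (hpq : p ≠ q) (h : Nat.card G = p * q ^ b * g) (hg : g < p - 1) (hp11 : p = 7 ∨ p = 11)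
    (h168 : Nat.card G ≠ 168) (h660 : Nat.card G ≠ 660) : False := by
  rcases S0997.result (fun hc => hG IsCyclic.isMulCommutative) p q b g hp hq hpq h hg with
    ⟨m, F, iF, iFf, hF, -, ⟨e⟩⟩ | ⟨m, F, iF, iFf, -, hm, -, -⟩
  · have hc := H6.card_psl2_mul (F := F) hF
    rw [← Nat.card_congr e.toEquiv] at hc
    rcases hp11 with rfl | rfl <;> norm_num at hc <;> omega
  · rcases hp11 with rfl | rfl
    · rcases Nat.lt_or_ge m 3 with h3 | h3
      · interval_cases m <;> omega
      · have := Nat.pow_le_pow_right two_pos h3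
        omega
    · rcases Nat.lt_or_ge m 4 with h3 | h3
      · interval_cases m <;> omega
      · have := Nat.pow_le_pow_right two_pos h3
        omega

theorem not_2268 (hG : ¬ IsMulCommutative G) (h : Nat.card G = 2268) : False :=
  false_of_cofactor hG 7 3 4 4 (by norm_num) (by norm_num) (by norm_num) (by rw [h]; norm_num)
    (by norm_num) (Or.inl rfl) (by rw [h]; norm_num) (by rw [h]; norm_num)

theorem not_2200 (hG : ¬ IsMulCommutative G) (h : Nat.card G = 2200) : False :=
  false_of_cofactor hG 11 5 2 8 (by norm_num) (by norm_num) (by norm_num) (by rw [h]; norm_num)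
    (by norm_num) (Or.inr rfl) (by rw [h]; norm_num) (by rw [h]; norm_num)

theorem not_3168 (hG : ¬ IsMulCommutative G) (h : Nat.card G = 3168) : False :=
  false_of_cofactor hG 11 2 5 9 (by norm_num) (by norm_num) (by norm_num) (by rw [h]; norm_num)
    (by norm_num) (Or.inr rfl) (by rw [h]; norm_num) (by rw [h]; norm_num)

end Cfsg.Agent.H28.Mid
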