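import Cfsg.Agent.H28.SmallOrders.Mid.CasesA
import Cfsg.Agent.H28.KleinFourSylow
import Cfsg.Agent.S0992
import Cfsg.Agent.S1019

/-!
# Orders between 1093 and 3640: involutions and self-centralising elements
-/

set_option autoImplicit false
set_option synthInstance.maxSize 1024

namespace Cfsg.Agent.H28.Mid

open Subgroup MulAction H28.Range6232

variable {G : Type*} [Group G] [Finite G]

/-- The centralizer of order `2p` of a Sylow subgroup of order `p`: a unique involution, central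
in the normalizer. -/
theorem unique_involution {p : ℕ} [hp : Fact p.Prime] (hp2 : p ≠ 2) (P : Sylow p G)
    (hP : Nat.card (P : Subgroup G) = p)
    (hC : Nat.card (centralizer ((P : Subgroup G) : Set G)) = p * 2) :
    ∃ x u : G, orderOf x = p ∧ zpowers x = (P : Subgroup G) ∧ orderOf u = 2 ∧ Commute x u ∧
      (∀ w ∈ centralizer ((P : Subgroup G) : Set G), orderOf w = 2 → w = u) ∧
      normalizer ((P : Subgroup G) : Set G) ≤ centralizer ({u} : Set G) ∧
      u ∈ centralizer ((P : Subgroup G) : Set G) := by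
  classical
  have : Fact (Nat.Prime 2) := ⟨Nat.prime_two⟩
  obtain ⟨x, u, hx, hxP, hu, hc, huC⟩ := exists_commuting (q := 2) P hP (by rw [hC]; exact ⟨p, by ring⟩)
  set C := centralizer ((P : Subgroup G) : Set G) with hCdef
  have ho : orderOf (x * u) = p * 2 := by
    rw [hc.orderOf_mul_eq_mul_orderOf_of_coprime
      (by rw [hx, hu]; exact (Nat.coprime_primes hp.out Nat.prime_two).mpr hp2), hx, hu]
  have hxC : x ∈ C := by
    rw [hCdef, centralizer_of_zpowers hxP, mem_centralizer_singleton_iff]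
  have hz : zpowers (x * u) = C :=
    eq_of_le_of_card_ge (zpowers_le.mpr (mul_mem hxC huC)) (by rw [Nat.card_zpowers, ho, hC])
  have huniq : ∀ w ∈ C, orderOf w = 2 → w = u := by
    intro w hw hwo
    rw [← hz, mem_zpowers_iff_mem_range_orderOf] at hw
    obtain ⟨i, -, hiw⟩ := Finset.mem_image.mp hw
    replace hiw : (x * u) ^ i = w := hiw
    have h2 : (x * u) ^ (i * 2) = 1 := by rw [pow_mul, hiw, ← hwo, pow_orderOf_eq_one]
    have hd := orderOf_dvd_of_pow_eq_one h2
    rw [ho] at hd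
    obtain ⟨j, rfl⟩ : p ∣ i := Nat.dvd_of_mul_dvd_mul_right two_pos hd
    rw [hc.mul_pow, pow_mul, ← hx, pow_orderOf_eq_one, one_pow, one_mul, hx] at hiw
    have hu' : w = u ^ ((p * j) % 2) := by rw [← hu, pow_mod_orderOf]; exact hiw.symm
    rcases Nat.mod_two_eq_zero_or_one (p * j) with h | h <;> rw [h] at hu'
    · rw [hu', pow_zero, orderOf_one] at hwo; norm_num at hwo
    · rw [hu', pow_one]
  refine ⟨x, u, hx, hxP, hu, hc, huniq, fun g hg => ?_, huC⟩
  have h1 : g * u * g⁻¹ = u := by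
    refine huniq _ ?_ ?_
    · rw [hCdef, mem_centralizer_iff]
      intro y hy
      have hy' : g⁻¹ * y * g ∈ (P : Subgroup G) := (mem_normalizer_iff''.mp hg y).mp hy
      have := mem_centralizer_iff.mp huC _ hy'
      calc y * (g * u * g⁻¹) = g * (g⁻¹ * y * g * u) * g⁻¹ := by group
        _ = g * (u * (g⁻¹ * y * g)) * g⁻¹ := by rw [this]
        _ = g * u * g⁻¹ * y := by group
    · rw [← hu]
      exact orderOf_injective (MulAut.conj g).toMonoidHom (MulAut.conj g).injective u
  rw [mem_centralizer_singleton_iff]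
  exact mul_inv_eq_iff_eq_mul.mp h1

variable [IsSimpleGroup G]

theorem not_1680 (hG : ¬ IsMulCommutative G) (h : Nat.card G = 1680) : False := by
  have : Fact (Nat.Prime 5) := ⟨by norm_num⟩
  have : Fact (Nat.Prime 3) := ⟨by norm_num⟩
  set P : Sylow 5 G := default
  set Q : Sylow 3 G := default
  obtain ⟨hP, n, e, K, hm, hd⟩ := prime_options hG 5 336 (by norm_num) (by rw [h]) (by norm_num) P
  obtain ⟨hQ, n', e', K', hm', hd'⟩ := prime_options hG 3 560 (by norm_num) (by rw [h]) (by norm_num) Q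
  obtain ⟨hn, -, -, -, -, -, -, -, hC, -, -, -⟩ := id hd
  obtain ⟨-, -, -, -, -, -, -, -, hC', -, -, -⟩ := id hd'
  have h1 : ∀ t ∈ primeOpts 5 336, t.1 = 21 ∨ t.2.2 % 3 = 0 := by decide +kernel
  rcases h1 _ hm with h21 | h3
  · exact S1010.result (G := G) (hn.trans h21)
  · replace h3 : K % 3 = 0 := h3
    have h5 := dual_dvd P Q hP hQ (by rw [hC]; omega)
    rw [hC'] at h5
    have h2 : ∀ t ∈ primeOpts 5 336, ∀ t' ∈ primeOpts 3 560, t.2.2 % 3 = 0 → t'.2.2 % 5 = 0 →
        t.1 = 21 ∨ ((∀ d ∈ (t.2.2 / 3).divisors, d % 3 = 1 → d = 1) ∧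
          (∀ d ∈ (t'.2.2 / 5).divisors, d % 5 = 1 → d = 1) ∧ t.1 ≠ t'.1) := by decide +kernel
    have hK' : K' % 5 = 0 := by omega
    rcases h2 _ hm _ hm' h3 hK' with h21 | ⟨ha, hb, hne⟩
    · exact S1010.result (G := G) (hn.trans h21)
    · exact false_of_counts hG (by norm_num) (by norm_num) (by norm_num) (by rw [h]) (by norm_num)
        (by rw [h]) (by norm_num) P Q hd hd' (Nat.dvd_of_mod_eq_zero h3)
        (Nat.dvd_of_mod_eq_zero hK') ha hb hne

set_option maxHeartbeats 800000 in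
theorem not_3360 (hG : ¬ IsMulCommutative G) (h : Nat.card G = 3360) : False := by
  have : Fact (Nat.Prime 7) := ⟨by norm_num⟩
  have : Fact (Nat.Prime 5) := ⟨by norm_num⟩
  have : Fact (Nat.Prime 3) := ⟨by norm_num⟩
  set P : Sylow 5 G := default
  set Q : Sylow 3 G := default
  obtain ⟨hP, n, e, K, hm, hd⟩ := prime_options hG 5 672 (by norm_num) (by rw [h]) (by norm_num) P
  obtain ⟨hQ, n', e', K', hm', hd'⟩ := prime_options hG 3 1120 (by norm_num) (by rw [h]) (by norm_num) Q
  obtain ⟨hn, -, -, -, -, -, -, -, hC, hN, -, -⟩ := id hd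
  obtain ⟨-, -, -, -, -, -, -, -, hC', -, -, -⟩ := id hd'
  have h1 : ∀ t ∈ primeOpts 5 672, t.1 = 21 ∨ t.2.2 % 3 = 0 ∨ (t.2.1 = 2 ∧ t.2.2 = 1) := by
    decide +kernel
  rcases h1 _ hm with h21 | h3 | ⟨he2, hK1⟩
  · exact S1010.result (G := G) (hn.trans h21)
  · replace h3 : K % 3 = 0 := h3
    have h5 := dual_dvd P Q hP hQ (by rw [hC]; omega)
    rw [hC'] at h5
    have h2 : ∀ t ∈ primeOpts 5 672, ∀ t' ∈ primeOpts 3 1120, t.2.2 % 3 = 0 → t'.2.2 % 5 = 0 →
        t.1 = 21 ∨ ((∀ d ∈ (t.2.2 / 3).divisors, d % 3 = 1 → d = 1) ∧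
          (∀ d ∈ (t'.2.2 / 5).divisors, d % 5 = 1 → d = 1) ∧ t.1 ≠ t'.1) := by decide +kernel
    have hK' : K' % 5 = 0 := by omega
    rcases h2 _ hm _ hm' h3 hK' with h21 | ⟨ha, hb, hne⟩
    · exact S1010.result (G := G) (hn.trans h21)
    · exact false_of_counts hG (by norm_num) (by norm_num) (by norm_num) (by rw [h]) (by norm_num)
        (by rw [h]) (by norm_num) P Q hd hd' (Nat.dvd_of_mod_eq_zero h3)
        (Nat.dvd_of_mod_eq_zero hK') ha hb hne
  simp only at he2 hK1
  subst he2; subst hK1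
  obtain ⟨X, hX2, hXp, hXd, hDd, hD2, hsq, hinv⟩ :=
    data_of_two hG (by norm_num) h P hP (by rw [hC]) (by rw [hN])
  set S : Sylow 7 G := default
  obtain ⟨hS, n7, e7, K7, hm7, hn7, -, -, -, -, -, -, -, hC7, hN7, -, -⟩ :=
    prime_options hG 7 480 (by norm_num) (by rw [h]) (by norm_num) S
  have h7 : ∀ t ∈ primeOpts 7 480, t.2.1 = 2 ∧ t.2.2 = 2 := by decide +kernel
  obtain ⟨he7, hK7⟩ := h7 _ hm7
  simp only at he7 hK7
  subst he7; subst hK7
  obtain ⟨x7, v, hx7, -, hv, -, -, hNv, -⟩ := unique_involution (by norm_num) S hS hC7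
  obtain ⟨u, hu, hu32⟩ := H30.exists_central_involution (G := G) (a := 5) (m := 105)
    (by rw [h]; norm_num) (by norm_num) (by norm_num)
  norm_num at hsq hu32
  obtain ⟨A, L, hA, hA2, -, heq⟩ := hinv u hu
  obtain ⟨B, M, hB, hB2, -, heq'⟩ := hinv v hv
  obtain ⟨j, hj⟩ := hu32
  obtain ⟨j', hj'⟩ : 28 ∣ Nat.card (centralizer ({v} : Set G)) :=
    (show 28 ∣ Nat.card (normalizer ((S : Subgroup G) : Set G)) by rw [hN7]).trans
      (card_dvd_of_le hNv)
  rw [hj] at heq
  rw [hj'] at heq'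
  push_cast at heq heq'
  have hlt : X.natAbs < 58 := by
    by_contra hc
    have h64 : (58 : ℤ) ^ 2 ≤ ((X.natAbs : ℕ) : ℤ) ^ 2 :=
      pow_le_pow_left₀ (by norm_num) (by exact_mod_cast (by omega : 58 ≤ X.natAbs)) 2
    rw [Int.natAbs_sq] at h64
    nlinarith [sq_nonneg (1 - X)]
  have hx : X = 4 ∨ X = -6 := by
    have hall1 : ∀ a < 58, a ∣ 3360 → 2 ≤ a → a % 5 = 4 → a - 1 ∣ 3360 →
        a * a + 2 * ((a - 1) * (a - 1)) < 3360 → a = 4 := by decide +kernel
    have hall2 : ∀ a < 58, a ∣ 3360 → 2 ≤ a → a % 5 = 1 → a + 1 ∣ 3360 →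
        a * a + 2 * ((a + 1) * (a + 1)) < 3360 → a = 6 := by decide +kernel
    rcases le_or_gt 0 X with hx0 | hx0
    · rw [show (1 - X).natAbs = X.natAbs - 1 by omega] at hDd
      have := hall1 X.natAbs hlt hXd hX2 (by omega) hDd (by
        zify [show 1 ≤ X.natAbs by omega]
        rw [abs_of_nonneg hx0]
        nlinarith)
      omega
    · rw [show (1 - X).natAbs = X.natAbs + 1 by omega] at hDd
      have := hall2 X.natAbs hlt hXd hX2 (by omega) hDd (by
        zify
        rw [abs_of_neg hx0]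
        nlinarith)
      omega
  rcases hx with rfl | rfl
  · have hdvd : (12288 : ℤ) ∣ 3360 * (4 - A) ^ 2 := ⟨(L : ℤ) * (j : ℤ) ^ 2, by rw [heq]; ring⟩
    norm_num [abs_lt] at hA
    have key : ∀ i < 7, (3360 * (4 - ((i : ℕ) - (3 : ℤ))) ^ 2) % 12288 ≠ 0 := by decide +kernel
    refine key (A + 3).toNat (by omega) ?_
    rw [Int.toNat_of_nonneg (by omega), show A + 3 - 3 = A by ring]
    exact Int.emod_eq_zero_of_dvd hdvd
  · have hdvd : (32928 : ℤ) ∣ 3360 * (-6 - B) ^ 2 := ⟨(M : ℤ) * (j' : ℤ) ^ 2, by rw [heq']; ring⟩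
    norm_num [abs_lt] at hB
    have key : ∀ i < 11, ((-6 : ℤ) - ((i : ℕ) - (5 : ℤ))) % 2 = 0 →
        (3360 * (-6 - ((i : ℕ) - (5 : ℤ))) ^ 2) % 32928 ≠ 0 := by decide +kernel
    refine key (B + 5).toNat (by omega) ?_ ?_
    · rw [Int.toNat_of_nonneg (by omega), show B + 5 - 5 = B by ring]
      exact Int.emod_eq_zero_of_dvd hB2
    · rw [Int.toNat_of_nonneg (by omega), show B + 5 - 5 = B by ring]
      exact Int.emod_eq_zero_of_dvd hdvd

theorem not_2160 (hG : ¬ IsMulCommutative G) (h : Nat.card G = 2160) : False := by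
  have : Fact (Nat.Prime 5) := ⟨by norm_num⟩
  set P : Sylow 5 G := default
  obtain ⟨hP, n, e, K, hm, -, -, -, -, -, -, -, -, hC, hN, -, -⟩ :=
    prime_options hG 5 432 (by norm_num) (by rw [h]) (by norm_num) P
  obtain ⟨x, hx, hxP⟩ := exists_generator P hP
  have hc := S1001.result (G := G) 5 3 4 (by norm_num) (by rw [h]; norm_num) x hx
  have hC5 : Nat.card (centralizer ((P : Subgroup G) : Set G)) = 5 := by
    rw [centralizer_of_zpowers hxP, hc, Nat.card_zpowers, hx]
  have h1 : ∀ t ∈ primeOpts 5 432, t.2.2 = 1 → t.2.1 = 2 := by decide +kernel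
  have hK : K = 1 := by omega
  have he : e = 2 := h1 _ hm hK
  subst he; subst hK
  obtain ⟨X, hX2, hXp, hXd, hDd, hD2, hsq, hinv⟩ :=
    data_of_two hG (by norm_num) h P hP (by rw [hC]) (by rw [hN])
  obtain ⟨u, hu, hu16⟩ := H30.exists_central_involution (G := G) (a := 4) (m := 135)
    (by rw [h]; norm_num) (by norm_num) (by norm_num)
  norm_num at hsq hu16
  obtain ⟨A, L, hA, -, hbound, heq⟩ := hinv u hu
  obtain ⟨j, hj⟩ := hu16
  rw [hj] at heq hbound
  push_cast at heq hbound
  norm_num at hbound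
  have hlt : X.natAbs < 47 := by
    by_contra hc
    have h64 : (47 : ℤ) ^ 2 ≤ ((X.natAbs : ℕ) : ℤ) ^ 2 :=
      pow_le_pow_left₀ (by norm_num) (by exact_mod_cast (by omega : 47 ≤ X.natAbs)) 2
    rw [Int.natAbs_sq] at h64
    nlinarith [sq_nonneg (1 - X)]
  have hx : X = 4 ∨ X = 9 := by
    have hall1 : ∀ a < 47, a ∣ 2160 → 2 ≤ a → a % 5 = 4 → a - 1 ∣ 2160 →
        a * a + 2 * ((a - 1) * (a - 1)) < 2160 → a = 4 ∨ a = 9 := by decide +kernel
    have hall2 : ∀ a < 47, a ∣ 2160 → 2 ≤ a → a % 5 = 1 → a + 1 ∣ 2160 →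
        a * a + 2 * ((a + 1) * (a + 1)) < 2160 → False := by decide +kernel
    rcases le_or_gt 0 X with hx0 | hx0
    · rw [show (1 - X).natAbs = X.natAbs - 1 by omega] at hDd
      have := hall1 X.natAbs hlt hXd hX2 (by omega) hDd (by
        zify [show 1 ≤ X.natAbs by omega]
        rw [abs_of_nonneg hx0]
        nlinarith)
      omega
    · rw [show (1 - X).natAbs = X.natAbs + 1 by omega] at hDd
      exact (hall2 X.natAbs hlt hXd hX2 (by omega) hDd (by
        zify
        rw [abs_of_neg hx0]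
        nlinarith)).elim
  rcases hx with rfl | rfl
  · have hdvd : (3072 : ℤ) ∣ 2160 * (4 - A) ^ 2 := ⟨(L : ℤ) * (j : ℤ) ^ 2, by rw [heq]; ring⟩
    norm_num [abs_lt] at hA
    have key : ∀ i < 7, (2160 * (4 - ((i : ℕ) - (3 : ℤ))) ^ 2) % 3072 ≠ 0 := by decide +kernel
    refine key (A + 3).toNat (by omega) ?_
    rw [Int.toNat_of_nonneg (by omega), show A + 3 - 3 = A by ring]
    exact Int.emod_eq_zero_of_dvd hdvd
  · have hdvd : (18432 : ℤ) ∣ 2160 * (9 - A) ^ 2 := ⟨(L : ℤ) * (j : ℤ) ^ 2, by rw [heq]; ring⟩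
    norm_num [abs_lt] at hA
    have key : ∀ i < 17, (2160 * (9 - ((i : ℕ) - (8 : ℤ))) ^ 2) % 18432 = 0 → i = 1 := by
      decide +kernel
    have hA7 := key (A + 8).toNat (by omega) (by
      rw [Int.toNat_of_nonneg (by omega), show A + 8 - 8 = A by ring]
      exact Int.emod_eq_zero_of_dvd hdvd)
    obtain rfl : A = -7 := by omega
    have hj5 : (j : ℤ) ≤ 5 := by
      by_contra hlt6
      have h36 : (36 : ℤ) ≤ (j : ℤ) ^ 2 := by nlinarith
      have hL : (1 : ℤ) ≤ (L : ℤ) := by
        rcases Nat.eq_zero_or_pos L with h0 | h0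
        · rw [h0] at heq; norm_num at heq
        · exact_mod_cast h0
      nlinarith [mul_le_mul hL h36 (by norm_num) (by positivity)]
    omega

/-- An involution centralising the normalizer fixes as many cosets as it has conjugates there. -/
theorem fixed_count {p : ℕ} [Fact p.Prime] (P : Sylow p G) {u : G} {M : ℕ}
    (huN : u ∈ normalizer ((P : Subgroup G) : Set G))
    (hc : Nat.card (centralizer ({u} : Set G)) = M)
    (hM : Nat.card (normalizer ((P : Subgroup G) : Set G)) = M) :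
    Nat.card (fixedBy (G ⧸ normalizer ((P : Subgroup G) : Set G)) u) =
      Nat.card {g : G // IsConj u g ∧ g ∈ normalizer ((P : Subgroup G) : Set G)} := by
  have h := S1019.result (normalizer ((P : Subgroup G) : Set G)) u huN
  have h1 := (centralizer ({u} : Set G)).index_mul_card
  have h2 := (normalizer ((P : Subgroup G) : Set G)).index_mul_card
  rw [hc, H25.index_centralizer_eq_card_class] at h1
  rw [hM, ← h1] at h2
  have h3 := Nat.eq_of_mul_eq_mul_right (hM ▸ Nat.card_pos) h2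
  rw [h3, mul_comm] at h
  exact Nat.eq_of_mul_eq_mul_left (Nat.card_pos_iff.mpr ⟨⟨⟨u, IsConj.refl u⟩⟩, inferInstance⟩) h

theorem not_3432 (hG : ¬ IsMulCommutative G) (h : Nat.card G = 3432) : False := by
  classical
  have : Fact (Nat.Prime 11) := ⟨by norm_num⟩
  set P : Sylow 11 G := default
  obtain ⟨hP, n, e, K, hm, hn, -, -, -, -, -, -, -, hC, hN, -, -⟩ :=
    prime_options hG 11 312 (by norm_num) (by rw [h]) (by norm_num) P
  have h1 : ∀ t ∈ primeOpts 11 312, t.1 = 78 ∧ t.2.1 = 2 ∧ t.2.2 = 2 := by decide +kernel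
  obtain ⟨hn78, he, hK⟩ := h1 _ hm
  simp only at hn78 he hK
  subst he; subst hK
  obtain ⟨x, v, hx, hxP, hv, hc, huniq, hNv, hvC⟩ := unique_involution (by norm_num) P hP hC
  set N := normalizer ((P : Subgroup G) : Set G) with hNdef
  set C := centralizer ((P : Subgroup G) : Set G) with hCdef
  replace hN : Nat.card N = 44 := hN
  replace hC : Nat.card C = 22 := hC
  have hv1 : v ≠ 1 := fun hh => by rw [hh, orderOf_one] at hv; omega
  have hPv : (P : Subgroup G) ≤ centralizer ({v} : Set G) := le_normalizer.trans hNv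
  obtain ⟨k, t, -, htdef, hk11, hHkt, -, -⟩ := sylow_count_one P _ hPv
  have ht : t = 44 := by rw [htdef, ← hN, inf_eq_left.mpr hNv]
  subst ht
  have hmem := mem_subOpts hG h _ (centralizer_ne_top hG hv1) (d := 44)
    (hN ▸ card_dvd_of_le hNv)
  have h2 : ∀ c ∈ subOpts 3432 44, c.1 % 44 = 0 ∧ ((c.1 / 44) % 11 = 1 → c.1 = 44) := by
    decide +kernel
  have hcv : Nat.card (centralizer ({v} : Set G)) = 44 :=
    (h2 _ hmem).2 (by simp only; rw [hHkt, Nat.mul_div_cancel _ (by norm_num)]; exact hk11)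
  have hCN : C ≤ N := centralizer_le_normalizer _
  have hcount := fixed_count P (hCN hvC) hcv hN
  have hidx : N.index = 78 := by rw [← hn78, ← hn]; exact P.card_eq_index_normalizer.symm
  obtain ⟨f, hf, hf4, hfp, hfv⟩ := involution_fix hG N (fun hh => by rw [hh, index_top] at hidx; omega)
    hx hv hc (card_fixed_sylow P hxP) le_rfl
  rw [hidx] at hf hf4
  have hf34 : f = 34 := by omega
  change Nat.card _ = Nat.card {g : G // IsConj v g ∧ g ∈ N} at hcount
  have hle : Nat.card {g : G // IsConj v g ∧ g ∈ N} ≤ 23 := by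
    let Φ : {g : G // IsConj v g ∧ g ∈ N} → Option {g : N // (g : G) ∉ C} := fun g =>
      if hg : (g.1 : G) ∈ C then none else some ⟨⟨g.1, g.2.2⟩, hg⟩
    have hΦ : Function.Injective Φ := by
      rintro ⟨a, ha, ha'⟩ ⟨b, hb, hb'⟩ hab
      have key : ∀ w : G, IsConj v w → w ∈ C → w = v := fun w hw hwC => huniq w hwC (by
        obtain ⟨g, rfl⟩ := isConj_iff.mp hw
        rw [← hv]
        exact orderOf_injective (MulAut.conj g).toMonoidHom (MulAut.conj g).injective v)
      simp only [Φ] at hab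
      by_cases h1 : a ∈ C <;> by_cases h2 : b ∈ C <;> simp [h1, h2] at hab
      · exact Subtype.ext ((key a ha h1).trans (key b hb h2).symm)
      · exact Subtype.ext hab
    refine (Nat.card_le_card_of_injective Φ hΦ).trans ?_
    rw [Finite.card_option]
    have hsum : Nat.card {g : N // (g : G) ∉ C} + Nat.card {g : N // (g : G) ∈ C} = 44 := by
      rw [add_comm, ← Nat.card_sum, ← hN]
      exact Nat.card_congr (Equiv.sumCompl _)
    have : Nat.card {g : N // (g : G) ∈ C} = 22 := by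
      rw [← hC]
      exact Nat.card_congr (subgroupOfEquivOfLe hCN).toEquiv
    omega
  rw [← hfv, hf34] at hcount; omega

theorem not_1980 (hG : ¬ IsMulCommutative G) (h : Nat.card G = 1980) : False := by
  classical
  have : Fact (Nat.Prime 11) := ⟨by norm_num⟩
  have : Fact (Nat.Prime 2) := ⟨Nat.prime_two⟩
  set P : Sylow 11 G := default
  obtain ⟨hP, n, e, K, hm, hn, -, -, -, -, -, -, -, hC, hN, -, -⟩ :=
    prime_options hG 11 180 (by norm_num) (by rw [h]) (by norm_num) P
  have h1 : ∀ t ∈ primeOpts 11 180, t.1 = 45 ∧ t.2.1 = 2 ∧ t.2.2 = 2 := by decide +kernel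
  obtain ⟨hn45, he, hK⟩ := h1 _ hm
  simp only at hn45 he hK
  subst he; subst hK
  obtain ⟨x, v, hx, hxP, hv, hc, -, hNv, hvC⟩ := unique_involution (by norm_num) P hP hC
  set N := normalizer ((P : Subgroup G) : Set G) with hNdef
  replace hN : Nat.card N = 44 := hN
  have hidx : N.index = 45 := by rw [← hn45, ← hn]; exact P.card_eq_index_normalizer.symm
  obtain ⟨f, hf, hf4, hfp, hfv⟩ := involution_fix hG N (fun hh => by rw [hh, index_top] at hidx; omega)
    hx hv hc (card_fixed_sylow P hxP) le_rfl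
  rw [hidx] at hf hf4
  have hf1 : f = 1 := by omega
  let T : Sylow 2 G := default
  have hTK := (S0992.result hG (by rw [h]; decide) (by rw [h]; norm_num) T).1
  have hconj : ∀ s t : G, orderOf s = 2 → orderOf t = 2 → IsConj s t := by
    rcases klein_sylow_dichotomy T hTK with ⟨hc, -⟩ | ⟨-, M, hM, hcomp⟩
    · exact hc
    · exfalso
      have hmul := hcomp.card_mul
      rw [hTK.card_four, h] at hmul
      rcases IsSimpleGroup.eq_bot_or_eq_top_of_normal M hM with rfl | rfl
      · rw [card_bot] at hmul; omega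
      · rw [card_top, h] at hmul; omega
  obtain ⟨s, hsN, hs, hsv⟩ : ∃ s ∈ N, orderOf s = 2 ∧ s ≠ v := by
    let S : Sylow 2 N := default
    have hS : Nat.card (S : Subgroup N) = 4 := by
      simpa using H30.card_sylow_subgroup (a := 2) (m := 11) S (by rw [hN]; norm_num) (by norm_num)
    obtain ⟨T', hT'⟩ := (S.2.map N.subtype).exists_le_sylow
    have hT'K := (S0992.result hG (by rw [h]; decide) (by rw [h]; norm_num) T').1
    have hle : (T' : Subgroup G) ≤ N := by
      rw [← eq_of_le_of_card_ge hT' (by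
        rw [← Nat.card_congr (equivMapOfInjective _ _ N.subtype_injective).toEquiv, hS, hT'K.card_four])]
      exact map_subtype_le _
    have h4 := hT'K.card_four
    obtain ⟨s, hs1, hsv⟩ : ∃ s : (T' : Subgroup G), s ≠ 1 ∧ (s : G) ≠ v := by
      by_contra hall
      push Not at hall
      have hf : Function.Injective fun s : (T' : Subgroup G) => decide (s = 1) := by
        intro a b hab
        simp only [decide_eq_decide] at hab
        by_cases ha : a = 1
        · rw [ha, hab.mp ha]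
        · exact Subtype.ext ((hall a ha).trans (hall b fun hb => ha (hab.mpr hb)).symm)
      have := Nat.card_le_card_of_injective _ hf
      rw [h4, Nat.card_eq_fintype_card, Fintype.card_bool] at this
      omega
    refine ⟨s, hle s.2, orderOf_eq_prime ?_ (fun hh => hs1 (Subtype.ext hh)), hsv⟩
    have := Monoid.pow_exponent_eq_one s
    rw [hT'K.exponent_two] at this
    exact congrArg Subtype.val this
  obtain ⟨g, hg⟩ := isConj_iff.mp (hconj s v hs hv)
  have h2 : ((g : G ⧸ N)) ∈ fixedBy (G ⧸ N) v := by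
    show v • (g : G ⧸ N) = g
    rw [MulAction.Quotient.smul_coe, smul_eq_mul]
    refine QuotientGroup.eq.mpr ?_
    rw [show (v * g)⁻¹ * g = (g⁻¹ * (g * s * g⁻¹) * g)⁻¹ by rw [hg]; group,
      show (g⁻¹ * (g * s * g⁻¹) * g)⁻¹ = s⁻¹ by group]
    exact inv_mem hsN
  have h3 : ((1 : G) : G ⧸ N) ∈ fixedBy (G ⧸ N) v := by
    show v • ((1 : G) : G ⧸ N) = _
    rw [MulAction.Quotient.smul_coe, smul_eq_mul, mul_one]
    refine QuotientGroup.eq.mpr ?_
    rw [mul_one]
    exact inv_mem (centralizer_le_normalizer _ hvC)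
  have hone : (fixedBy (G ⧸ N) v).ncard = 1 := by
    rw [← Nat.card_coe_set_eq, ← hfv, hf1]
  obtain ⟨a, ha⟩ := Set.ncard_eq_one.mp hone
  rw [ha, Set.mem_singleton_iff] at h2 h3
  have hgN : g ∈ N := by
    have := QuotientGroup.eq.mp (h3.trans h2.symm)
    simpa using this
  apply hsv
  have hgv := mem_centralizer_singleton_iff.mp (hNv hgN)
  calc s = g⁻¹ * (g * s * g⁻¹) * g := by group
    _ = g⁻¹ * v * g := by rw [hg]
    _ = g⁻¹ * (v * g) := by group
    _ = g⁻¹ * (g * v) := by rw [hgv]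
    _ = v := by group

end Cfsg.Agent.H28.Mid
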