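import Cfsg.Agent.H28.SmallOrders.Mid.CasesB
import Cfsg.Agent.H28.SmallOrders.Range.CasesB
import Cfsg.Agent.H28.SmallOrders.Range.CasesC
import Cfsg.Agent.S0996

/-!
# Orders between 1093 and 3640: the orders 3120 and 3600
-/

set_option autoImplicit false
set_option synthInstance.maxSize 1024

namespace Cfsg.Agent.H28.Mid

open Subgroup MulAction H28.Range6232

variable {G : Type*} [Group G] [Finite G] [IsSimpleGroup G]

set_option maxHeartbeats 800000 in
theorem not_3120 (hG : ¬ IsMulCommutative G) (h : Nat.card G = 3120) : False := by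
  classical
  let _ : Fintype G := Fintype.ofFinite G
  have : Fact (Nat.Prime 13) := ⟨by norm_num⟩
  have : Fact (Nat.Prime 3) := ⟨by norm_num⟩
  have : Fact (Nat.Prime 2) := ⟨Nat.prime_two⟩
  set P : Sylow 13 G := default
  obtain ⟨hP, n, e, K, hm, hn, -, -, -, -, -, -, -, hC, hN, -, -⟩ :=
    prime_options hG 13 240 (by norm_num) (by rw [h]) (by norm_num) P
  have h1 : ∀ t ∈ primeOpts 13 240, t.1 = 40 ∧ (t.2.2 = 1 ∨ t.2.1 = 2 ∧ t.2.2 = 3) := by
    decide +kernel
  obtain ⟨hn40, hcase⟩ := h1 _ hm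
  simp only at hn40 hcase
  rcases hcase with hK | ⟨he, hK⟩
  · subst hK
    obtain ⟨z, hz, hzP⟩ := exists_generator P hP
    have hCz : centralizer ({z} : Set G) = zpowers z :=
      (eq_of_le_of_card_ge (zpowers_le.mpr (mem_centralizer_singleton_iff.mpr rfl))
        (by rw [← centralizer_of_zpowers hzP, hC, Nat.card_zpowers, hz])).symm
    rcases S0996.result (H31.FewSylow.perfect_of_simple (fun hc => hG IsCyclic.isMulCommutative))
      13 z hz hCz (by rw [hn, hn40]; norm_num) with ⟨F, iF, iFf, hF, -, ⟨e⟩⟩ | ⟨m, F, iF, iFf, -, hm', -⟩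
    · have hc := H6.card_psl2_mul (F := F) hF
      rw [← Nat.card_congr e.toEquiv, h] at hc
      norm_num at hc
    · rcases Nat.lt_or_ge m 4 with h3 | h3
      · interval_cases m <;> omega
      · have := Nat.pow_le_pow_right two_pos h3
        omega
  subst he; subst hK
  replace hC : Nat.card (centralizer ((P : Subgroup G) : Set G)) = 39 := hC
  replace hN : Nat.card (normalizer ((P : Subgroup G) : Set G)) = 78 := hN
  set Q : Sylow 3 G := default
  obtain ⟨hQ, n', e', K', hm', -, -, -, -, -, -, -, -, hC', -, -, -⟩ :=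
    prime_options hG 3 1040 (by norm_num) (by rw [h]) (by norm_num) Q
  have h13 := dual_dvd P Q hP hQ (by rw [hC]; norm_num)
  rw [hC'] at h13
  have h2 : ∀ t ∈ primeOpts 3 1040, t.2.2 % 13 = 0 → t.2.2 = 13 := by decide +kernel
  have hK' : K' = 13 := h2 _ hm' (by show K' % 13 = 0; omega)
  subst hK'
  replace hC' : Nat.card (centralizer ((Q : Subgroup G) : Set G)) = 39 := hC'
  set C := centralizer ((P : Subgroup G) : Set G) with hCdef
  set N := normalizer ((P : Subgroup G) : Set G) with hNdef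
  obtain ⟨x, w, hx, hxP, hw, hc, hwC⟩ := exists_commuting (q := 3) P hP (by rw [hC]; norm_num)
  have hxC : x ∈ C := by
    rw [hCdef, centralizer_of_zpowers hxP, mem_centralizer_singleton_iff]
  have hCw : Nat.card (centralizer ({w} : Set G)) = 39 := by
    have hz : IsPGroup 3 (zpowers w) :=
      IsPGroup.of_card (n := 1) (by rw [Nat.card_zpowers, hw, pow_one])
    obtain ⟨S, hS⟩ := hz.exists_le_sylow
    obtain ⟨hSc, n'', e'', K'', hm'', -, -, -, -, -, -, -, -, hCS, -, -, -⟩ :=
      prime_options hG 3 1040 (by norm_num) (by rw [h]) (by norm_num) S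
    have hSz : zpowers w = (S : Subgroup G) :=
      eq_of_le_of_card_ge hS (by rw [hSc, Nat.card_zpowers, hw])
    have h13' := dual_dvd P S hP hSc (by rw [hC]; norm_num)
    rw [hCS] at h13'
    have hK'' : K'' = 13 := h2 _ hm'' (by show K'' % 13 = 0; omega)
    rw [← centralizer_of_zpowers hSz, hCS, hK'']
  set z := x * w with hz
  have hzo : orderOf z = 39 := by
    rw [hz, hc.orderOf_mul_eq_mul_orderOf_of_coprime (by rw [hx, hw]; norm_num), hx, hw]
  have hzC : zpowers z = C :=
    eq_of_le_of_card_ge (zpowers_le.mpr (mul_mem hxC hwC)) (by rw [Nat.card_zpowers, hzo, hC])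
  have hz27 : z ^ 27 = x := by
    rw [hz, hc.mul_pow, ← pow_mod_orderOf x, hx, ← pow_mod_orderOf w, hw]; simp
  have hz13 : z ^ 13 = w := by
    rw [hz, hc.mul_pow, ← pow_mod_orderOf x, hx, ← pow_mod_orderOf w, hw]; simp
  have hCN : C ≤ N := centralizer_le_normalizer _
  have hidx : N.index = 40 := by rw [← hn40, ← hn]; exact P.card_eq_index_normalizer.symm
  have hidx2 : (C.subgroupOf N).index = 2 := by
    have h3 := (C.subgroupOf N).index_mul_card
    rw [Nat.card_congr (subgroupOfEquivOfLe hCN).toEquiv, hC, hN] at h3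
    omega
  set a0 : G ⧸ N := ((1 : G) : G ⧸ N) with ha0
  have hbase : ∀ g ∈ N, g • a0 = a0 := fun g hg => by
    rw [ha0, MulAction.Quotient.smul_coe, smul_eq_mul, mul_one]
    exact QuotientGroup.eq.mpr (show g⁻¹ * 1 ∈ N from (mul_one g⁻¹).symm ▸ inv_mem hg)
  have honeX : ∀ a : G ⧸ N, x • a = a → a = a0 := by
    intro a ha
    have h1 := card_fixed_sylow P hxP
    rw [Nat.card_coe_set_eq] at h1
    exact (Set.ncard_le_one (Set.toFinite _)).mp h1.le a ha a0 (hbase x (hCN hxC))
  have honeW : ∀ a : G ⧸ N, w • a = a → a = a0 := by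
    intro a ha
    have h1 := S1019.result N w (hCN hwC)
    have h4 := (centralizer ({w} : Set G)).index_mul_card
    rw [hCw, h, H25.index_centralizer_eq_card_class] at h4
    rw [hidx, show Nat.card {g : G // IsConj w g} = 80 by omega] at h1
    have hj : Nat.card {g : G // IsConj w g ∧ g ∈ N} ≤ 3 := by
      have hsub : {g : G | IsConj w g ∧ g ∈ N} ⊆
          (((Finset.range 3).image fun k => z ^ (13 * k) : Finset G) : Set G) := by
        rintro g ⟨hg, hgN⟩
        have hgo : g ^ 3 = 1 := by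
          obtain ⟨c, rfl⟩ := isConj_iff.mp hg
          rw [conj_pow, ← hw, pow_orderOf_eq_one, mul_one, mul_inv_cancel]
        have hgC : g ∈ C := by
          have h5 := (C.subgroupOf N).sq_mem_of_index_two hidx2 (⟨g, hgN⟩ ^ 2)
          rw [← pow_mul, mem_subgroupOf, Subgroup.coe_pow] at h5
          rwa [show g ^ (2 * 2) = g by rw [show 2 * 2 = 3 + 1 by norm_num, pow_succ, hgo, one_mul]] at h5
        rw [← hzC, mem_zpowers_iff_mem_range_orderOf] at hgC
        obtain ⟨i, hi, hzi⟩ := Finset.mem_image.mp hgC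
        replace hzi : z ^ i = g := hzi
        rw [Finset.mem_range, hzo] at hi
        have h6 : z ^ (i * 3) = 1 := by rw [pow_mul, hzi, hgo]
        have h7 := orderOf_dvd_of_pow_eq_one h6
        rw [hzo] at h7
        obtain ⟨k, rfl⟩ : 13 ∣ i := by omega
        rw [Finset.coe_image, Set.mem_image]
        exact ⟨k, by simpa using (show k < 3 by omega), hzi⟩
      refine (Nat.card_coe_set_eq _).le.trans ?_
      refine (Set.ncard_le_ncard hsub (Finset.finite_toSet _)).trans ?_
      rw [Set.ncard_coe_finset]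
      exact Finset.card_image_le.trans (by simp)
    have hf : (fixedBy (G ⧸ N) w).ncard ≤ 1 := by
      rw [← Nat.card_coe_set_eq]; omega
    exact (Set.ncard_le_one (Set.toFinite _)).mp hf a ha a0 (hbase w (hCN hwC))
  -- an inverting involution
  obtain ⟨τ, hτ⟩ := exists_prime_orderOf_dvd_card' (G := N) 2 (by rw [hN]; norm_num)
  rw [← orderOf_coe] at hτ
  set s : G := (τ : G)
  have hs2 : s * s = 1 := by rw [← pow_two, ← hτ, pow_orderOf_eq_one]
  have hsC : s * z * s⁻¹ ∈ C := by
    rw [hCdef, mem_centralizer_iff]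
    intro y hy
    have hy' : s⁻¹ * y * s ∈ (P : Subgroup G) := (mem_normalizer_iff''.mp τ.2 y).mp hy
    have hzC' : z ∈ C := hzC ▸ mem_zpowers z
    have := mem_centralizer_iff.mp hzC' _ hy'
    calc y * (s * z * s⁻¹) = s * (s⁻¹ * y * s * z) * s⁻¹ := by group
      _ = s * (z * (s⁻¹ * y * s)) * s⁻¹ := by rw [this]
      _ = s * z * s⁻¹ * y := by group
  obtain ⟨i, hi, hzi⟩ : ∃ i < 39, z ^ i = s * z * s⁻¹ := by
    rw [← hzC, mem_zpowers_iff_mem_range_orderOf, hzo] at hsC
    obtain ⟨i, hi, hzi⟩ := Finset.mem_image.mp hsC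
    exact ⟨i, Finset.mem_range.mp hi, hzi⟩
  have hii : i * i % 39 = 1 := by
    have h1 : z ^ (i * i) = z := by
      rw [pow_mul, hzi, conj_pow, hzi]
      calc s * (s * z * s⁻¹) * s⁻¹ = (s * s) * z * (s * s)⁻¹ := by group
        _ = z := by rw [hs2]; group
    have h3 : z ^ (i * i) = z ^ 1 := by rw [h1, pow_one]
    have := pow_eq_pow_iff_modEq.mp h3
    rwa [hzo] at this
  have hi38 : i = 38 := by
    have hcases : ∀ i < 39, i * i % 39 = 1 → i = 38 ∨ 27 * i % 39 = 27 ∨ 13 * i % 39 = 13 := by decide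
    have hodd : ∀ k : ℕ, Nat.card (centralizer ({z ^ k} : Set G)) = 39 → k * i % 39 ≠ k % 39 := by
      intro k hk hki
      have h1 : s * z ^ k * s⁻¹ = z ^ k := by
        rw [← conj_pow, ← hzi, ← pow_mul, ← pow_mod_orderOf, hzo, mul_comm i k, hki]
        conv_rhs => rw [← pow_mod_orderOf, hzo]
      have hmem : s ∈ centralizer ({z ^ k} : Set G) :=
        mem_centralizer_singleton_iff.mpr (mul_inv_eq_iff_eq_mul.mp h1)
      have := orderOf_dvd_natCard (⟨s, hmem⟩ : centralizer ({z ^ k} : Set G))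
      rw [orderOf_mk, hτ, hk] at this
      norm_num at this
    rcases hcases i hi hii with h' | h' | h'
    · exact h'
    · exact absurd (by rw [h'] ) (hodd 27 (by rw [hz27, ← centralizer_of_zpowers hxP, ← hCdef, hC]))
    · exact absurd (by rw [h'] ) (hodd 13 (by rw [hz13, hCw]))
  subst hi38
  have hper : ∀ a : G ⧸ N, a ≠ a0 → period z a = 39 := by
    intro a ha
    have hd : period z a ∣ 39 := hzo ▸ period_dvd_orderOf z a
    have hmem : period z a ∈ Nat.divisors 39 := Nat.mem_divisors.mpr ⟨hd, by norm_num⟩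
    rw [show Nat.divisors 39 = {1, 3, 13, 39} by decide] at hmem
    simp only [Finset.mem_insert, Finset.mem_singleton] at hmem
    rcases hmem with h' | h' | h' | h'
    · exact absurd (honeX a (hz27 ▸ pow_smul_eq_iff_period_dvd.mpr (h' ▸ one_dvd 27))) ha
    · exact absurd (honeX a (hz27 ▸ pow_smul_eq_iff_period_dvd.mpr (h' ▸ ⟨9, rfl⟩))) ha
    · exact absurd (honeW a (hz13 ▸ pow_smul_eq_iff_period_dvd.mpr (dvd_of_eq h'))) ha
    · exact h'
  have hzN : z ∈ N := hCN (hzC ▸ mem_zpowers z)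
  have horbit : ∀ a b : G ⧸ N, a ≠ a0 → b ≠ a0 → ∃ j : ℕ, z ^ j • a = b := by
    intro a b ha hb
    have hsub : orbit (zpowers z) a ⊆ ({a0}ᶜ : Set (G ⧸ N)) := by
      rintro _ ⟨⟨v, hv⟩, rfl⟩ hmem
      have hmem' : v • a = a0 := hmem
      exact ha (by
        calc a = v⁻¹ • (v • a) := (inv_smul_smul v a).symm
          _ = v⁻¹ • a0 := by rw [hmem']
          _ = a0 := hbase _ (inv_mem ((zpowers_le.mpr hzN) hv)))
    have heq : orbit (zpowers z) a = ({a0}ᶜ : Set (G ⧸ N)) := by
      refine Set.eq_of_subset_of_ncard_le hsub (le_of_eq ?_)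
      rw [Set.ncard_compl, Set.ncard_singleton, ← index_eq_card, hidx, ← Nat.card_coe_set_eq]
      exact ((Nat.card_congr (orbitZPowersEquiv z a)).trans
        ((Nat.card_zmod _).trans (hper a ha))).symm
    obtain ⟨⟨v, hv⟩, hvb⟩ : b ∈ orbit (zpowers z) a := heq ▸ hb
    rw [mem_zpowers_iff_mem_range_orderOf] at hv
    obtain ⟨j, -, rfl⟩ := Finset.mem_image.mp hv
    exact ⟨j, hvb⟩
  have hfix : (fixedBy (G ⧸ N) s \ {a0}).ncard ≤ 1 := by
    rw [Set.ncard_le_one (Set.toFinite _)]
    rintro a ⟨ha, ha0'⟩ b ⟨hb, hb0⟩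
    obtain ⟨j, hwb⟩ := horbit a b ha0' hb0
    have hb' : s • z ^ j • a = z ^ j • a := by rw [hwb]; exact hb
    have ha' : s⁻¹ • a = a := inv_smul_eq_iff.mpr (Eq.symm ha)
    have h5 : z ^ (38 * j) • a = z ^ j • a := by
      rw [pow_mul, hzi, conj_pow, mul_smul, mul_smul, ha']
      exact hb'
    have h6 : z ^ (39 * j) • a = a := by
      rw [pow_mul, ← hzo, pow_orderOf_eq_one, one_pow, one_smul]
    have h7 : z ^ (2 * j) • a = a := by
      calc z ^ (2 * j) • a = z ^ j • (z ^ j • a) := by rw [two_mul, pow_add, mul_smul]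
        _ = z ^ j • (z ^ (38 * j) • a) := by rw [h5]
        _ = z ^ (39 * j) • a := by rw [smul_smul, ← pow_add]; ring_nf
        _ = a := h6
    have h8 := pow_smul_eq_iff_period_dvd.mp h7
    rw [hper a ha0'] at h8
    obtain ⟨l, hl⟩ : 39 ∣ j := (Nat.Coprime.dvd_of_dvd_mul_left (by norm_num) h8)
    rw [← hwb, hl, pow_mul, ← hzo, pow_orderOf_eq_one, one_pow, one_smul]
  have hmem0 : a0 ∈ fixedBy (G ⧸ N) s := hbase s τ.2
  have h9 := Set.ncard_sdiff_singleton_of_mem hmem0
  have hpos : 0 < (fixedBy (G ⧸ N) s).ncard := (Set.ncard_pos (Set.toFinite _)).mpr ⟨a0, hmem0⟩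
  have hmod := H30.card_fixedBy_involution_mod_four hG N (by rw [pow_two]; exact hs2 : s ^ 2 = 1)
  rw [hidx, Nat.card_coe_set_eq] at hmod
  omega

set_option maxHeartbeats 800000 in
theorem not_3600 (hG : ¬ IsMulCommutative G) (h : Nat.card G = 3600) : False := by
  have : Fact (Nat.Prime 5) := ⟨by norm_num⟩
  have : Fact (Nat.Prime 3) := ⟨by norm_num⟩
  have hcard : Nat.card G = 5 ^ 2 * 144 := by rw [h]; norm_num
  have h1 : ∀ s ∈ sylowOpts 5 (5 ^ 2 * 144) 144, s = 16 ∨ s = 36 := by decide +kernel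
  have hn := h1 _ (sylow_options hG 5 2 144 hcard (by norm_num) (by norm_num))
  obtain ⟨d, Q, R, hd, -, -, hne, -, hQ, hQH, hRH⟩ :=
    exists_common_element hcard (by norm_num) (by rcases hn with hn | hn <;> rw [hn] <;> norm_num)
  obtain ⟨k, hk, hk5, hk1, hHk, hdvd⟩ := sylow_count_two Q R hne _ hQH hRH
  have hd1 : d ≠ 1 := fun hh => by rw [hh, orderOf_one] at hd; omega
  rw [hQ] at hdvd
  have hmem := mem_subOpts hG h _ (centralizer_ne_top hG hd1) ((dvd_mul_left (5 ^ 2) k).trans hdvd)
  have hkm : k < 145 := by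
    have := Nat.le_of_dvd (by norm_num) (hdvd.trans (h ▸ card_subgroup_dvd_card _))
    omega
  have h2 : ∀ c ∈ subOpts 3600 (5 ^ 2), ∀ k < 145, k % 5 = 1 → 1 < k → k * 5 ^ 2 ∣ c.1 →
      k = 6 ∧ (c.1 = 2 * 75 ∨ c.1 = 300) := by decide +kernel
  obtain ⟨hk6, hc⟩ := h2 _ hmem k hkm hk5 hk1 hdvd
  rcases hc with hc | hc
  · exact odd_card_sylow (p := 5) (by norm_num) hc (by norm_num) (by rw [← hk, hk6]; norm_num)
  simp only at hc
  rw [hc, hk6] at hHk
  have ht := Nat.eq_of_mul_eq_mul_left (by norm_num : 0 < 6)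
    (hHk.symm.trans (by norm_num : 300 = 6 * 50))
  have hmul := H30.card_sylow_mul_normalizer 5 Q
  rw [h] at hmul
  have hN : Nat.card (normalizer ((Q : Subgroup G) : Set G)) = 100 := by
    have h50 : 50 ∣ Nat.card (normalizer ((Q : Subgroup G) : Set G)) :=
      ht ▸ card_dvd_of_le inf_le_left
    rcases hn with hn | hn <;> rw [hn] at hmul <;> omega
  have hNd : normalizer (zpowers d : Set G) ≤ centralizer ({d} : Set G) :=
    normalizer_le_of_index hG h hd hc (by decide +kernel)
  obtain ⟨y, hy⟩ := exists_prime_orderOf_dvd_card' (G := centralizer ({d} : Set G)) 3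
    (by rw [hc]; norm_num)
  rw [← orderOf_coe] at hy
  set Y := centralizer ({(y : G)} : Set G) with hY
  have hdY : d ∈ Y := by
    rw [hY, mem_centralizer_singleton_iff]
    exact (mem_centralizer_singleton_iff.mp y.2).symm
  have hzy : IsPGroup 3 (zpowers (y : G)) :=
    IsPGroup.of_card (n := 1) (by rw [Nat.card_zpowers, hy, pow_one])
  obtain ⟨P, hPy⟩ := hzy.exists_le_sylow
  have hP9 : Nat.card (P : Subgroup G) = 3 ^ 2 :=
    H30.card_sylow_subgroup (m := 400) P (by rw [h]; norm_num) (by norm_num)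
  have : IsMulCommutative (P : Subgroup G) := IsPGroup.isMulCommutative_of_card_eq_prime_sq hP9
  have hPY : (P : Subgroup G) ≤ Y := fun v hv => mem_centralizer_singleton_iff.mpr
    (congrArg Subtype.val ((IsMulCommutative.is_comm (M := (P : Subgroup G))).comm ⟨v, hv⟩
      ⟨(y : G), hPy (mem_zpowers _)⟩))
  have hy1 : (y : G) ≠ 1 := fun hh => by rw [hh, orderOf_one] at hy; omega
  have h45 : 45 ∣ Nat.card Y := by
    have h5 : 5 ∣ Nat.card Y := by
      have := orderOf_dvd_natCard (⟨d, hdY⟩ : Y)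
      rwa [orderOf_mk, hd] at this
    have h9 : 9 ∣ Nat.card Y := (dvd_of_eq (show 9 = Nat.card (P : Subgroup G) by rw [hP9]; norm_num)).trans
      (card_dvd_of_le hPY)
    exact Nat.Coprime.mul_dvd_of_dvd_of_dvd (by norm_num : Nat.Coprime 9 5) h9 h5
  have hmemY := mem_subOpts hG h Y (centralizer_ne_top hG hy1) h45
  have h3 : ∀ c ∈ subOpts 3600 45, c.1 = 225 ∨ (c.1 % 25 ≠ 0 ∧ c.1 / 5 / 9 < 10 ∧
      (∀ t < c.1 / 5 / 9 + 1, t % 3 = 1 → t ∣ c.1 / 5 / 9 → t < 5)) := by decide +kernel
  rcases h3 _ hmemY with h225 | ⟨h25, -, h34⟩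
  · simp only at h225
    let S : Sylow 5 Y := default
    have hS : Nat.card (S : Subgroup Y) = 5 ^ 2 :=
      H30.card_sylow_subgroup (m := 9) S (by rw [h225]; norm_num) (by norm_num)
    obtain ⟨T, hT⟩ := (S.2.map Y.subtype).exists_le_sylow
    have hTc : Nat.card (T : Subgroup G) = 5 ^ 2 := H30.card_sylow_subgroup T hcard (by norm_num)
    have hTY : (T : Subgroup G) ≤ Y := by
      rw [← eq_of_le_of_card_ge hT (by
        rw [← Nat.card_congr (equivMapOfInjective _ _ Y.subtype_injective).toEquiv, hS, hTc])]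
      exact map_subtype_le _
    obtain ⟨k', t, -, -, hk', hYkt, ht', hTt⟩ := sylow_count_one T Y hTY
    rw [card_normalizer_eq Q T, hN] at ht'
    rw [hTc] at hTt
    rw [h225] at hYkt
    have hcases : ∀ t < 101, t ∣ 100 → 25 ∣ t → 225 % t = 0 → (225 / t) % 5 ≠ 1 := by decide
    have htp : 0 < t := Nat.pos_of_dvd_of_pos ht' (by norm_num)
    refine hcases t (by have := Nat.le_of_dvd (by norm_num) ht'; omega) ht' (by simpa using hTt)
      (by rw [hYkt]; exact Nat.mul_mod_left _ _) ?_
    rw [hYkt, Nat.mul_div_cancel _ htp]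
    exact hk'
  simp only at h25 h34
  -- the Sylow 5-subgroup generated by `d` has a normal complement in `Y`
  obtain ⟨j, hj⟩ := h45
  have hj5 : ¬ 5 ∣ 9 * j := fun hh => h25 (by omega)
  let D : Sylow 5 Y := default
  obtain ⟨S, hS⟩ := (IsPGroup.of_card (n := 1) (p := 5) (G := zpowers (⟨d, hdY⟩ : Y))
    (by rw [Nat.card_zpowers, orderOf_mk, hd, pow_one])).exists_le_sylow
  have hSc : Nat.card (S : Subgroup Y) = 5 := by
    simpa using H30.card_sylow_subgroup (a := 1) (m := 9 * j) S (by rw [hj]; ring) hj5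
  have hSd : (S : Subgroup Y) = zpowers (⟨d, hdY⟩ : Y) :=
    (eq_of_le_of_card_ge hS (by rw [hSc, Nat.card_zpowers, orderOf_mk, hd])).symm
  have hNS : normalizer ((S : Subgroup Y) : Set Y) ≤ centralizer ((S : Subgroup Y) : Set Y) := by
    intro v hv
    have hvN : (v : G) ∈ normalizer (zpowers d : Set G) := by
      have hmap : (S : Subgroup Y).map Y.subtype = zpowers d := by
        rw [hSd, MonoidHom.map_zpowers]; rfl
      rw [← hmap]
      exact le_normalizer_map Y.subtype ⟨v, hv, rfl⟩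
    have hvd := mem_centralizer_singleton_iff.mp (hNd hvN)
    rw [centralizer_of_zpowers hSd.symm, mem_centralizer_singleton_iff]
    exact Subtype.ext hvd
  set K := (MonoidHom.transferSylow S hNS).ker with hK
  have hcomp : IsComplement' K (S : Subgroup Y) := MonoidHom.ker_transferSylow_isComplement' S hNS
  have hKc : Nat.card K = 9 * j := by
    have := hcomp.card_mul
    rw [hSc, hj] at this
    omega
  -- `d` fixes one of the Sylow 3-subgroups of the complement
  have hn3 : Nat.card (Sylow 3 K) < 5 := by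
    have hj3 : ¬ 3 ∣ j := by
      intro h'
      have h27 : 27 ∣ Nat.card G := (show 27 ∣ Nat.card Y by rw [hj]; omega).trans
        (card_subgroup_dvd_card Y)
      rw [h] at h27
      norm_num at h27
    have hdvd3 := H30.card_sylow_dvd (G := K) (p := 3) (a := 2) (m := j) (by rw [hKc]; norm_num) hj3
    have hmod : Nat.card (Sylow 3 K) % 3 = 1 := by
      have := card_sylow_modEq_one 3 K
      rwa [Nat.ModEq, Nat.mod_eq_of_lt (by norm_num : 1 < 3)] at this
    have hj' : Nat.card Y / 5 / 9 = j := by rw [hj]; omega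
    have hjpos : 0 < j := by
      rcases Nat.eq_zero_or_pos j with h0 | h0
      · subst h0; exact absurd hKc Nat.card_pos.ne'
      · exact h0
    rw [hj'] at h34
    exact h34 _ (Nat.lt_succ_of_le (Nat.le_of_dvd hjpos hdvd3)) hmod hdvd3
  let dY : Y := ⟨d, hdY⟩
  let P' : Sylow 3 K := default
  let L : Subgroup Y := (P' : Subgroup K).map K.subtype
  have hLc : Nat.card L = 9 := by
    rw [← Nat.card_congr (equivMapOfInjective _ _ K.subtype_injective).toEquiv]
    simpa using H30.card_sylow_subgroup (a := 2) (m := j) P' (by rw [hKc]; norm_num) (by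
      intro h'
      have h27 : 27 ∣ Nat.card G := (show 27 ∣ Nat.card Y by rw [hj]; omega).trans
        (card_subgroup_dvd_card Y)
      rw [h] at h27
      norm_num at h27)
  have hKn : K.Normal := MonoidHom.normal_ker _
  -- conjugation by `d` on the Sylow 3-subgroups
  obtain ⟨S', hS'⟩ : ∃ S' : Sylow 3 K, (MulAut.conjNormal dY : MulAut K) • S' = S' := by
    by_contra hall
    push Not at hall
    set σ : MulAut K := MulAut.conjNormal dY
    have hσ : σ ^ 5 = 1 := by
      rw [← map_pow, show dY ^ 5 = 1 from Subtype.ext (show d ^ 5 = 1 by rw [← hd, pow_orderOf_eq_one]),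
        map_one]
    have hp : ∀ S' : Sylow 3 K, period σ S' = 5 := fun S' => by
      have hd5 : period σ S' ∣ 5 := (period_dvd_orderOf σ S').trans (orderOf_dvd_of_pow_eq_one hσ)
      refine ((Nat.dvd_prime (by norm_num)).mp hd5).resolve_left fun h1 => hall S' ?_
      have := pow_period_smul σ S'
      rwa [h1, pow_one] at this
    have h5 : 5 ≤ Nat.card (Sylow 3 K) := by
      have h' := Finite.card_subtype_le (fun T : Sylow 3 K => T ∈ orbit (zpowers σ) P')
      refine le_trans (le_of_eq ?_) h'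
      rw [← hp P']
      exact ((Nat.card_congr (orbitZPowersEquiv σ P')).trans (Nat.card_zmod _)).symm
    omega
  -- it then centralises it
  let M : Subgroup Y := (S' : Subgroup K).map K.subtype
  have hMc : Nat.card M = 9 := by
    rw [← Nat.card_congr (equivMapOfInjective _ _ K.subtype_injective).toEquiv,
      Nat.card_congr (Sylow.equiv S' P').toEquiv,
      Nat.card_congr (equivMapOfInjective _ _ K.subtype_injective).toEquiv]
    exact hLc
  have hMN : dY ∈ normalizer (M : Set Y) := by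
    have hstep : ∀ v, v ∈ M → dY * v * dY⁻¹ ∈ M := by
      rintro v ⟨v', hv', rfl⟩
      refine ⟨(MulAut.conjNormal dY : MulAut K) v', ?_, ?_⟩
      · rw [← hS']
        exact ⟨v', hv', rfl⟩
      · simp
    refine mem_normalizer_iff.mpr fun v => ⟨hstep v, fun hv => ?_⟩
    have h5' : dY ^ 5 = 1 := Subtype.ext (show d ^ 5 = 1 by rw [← hd, pow_orderOf_eq_one])
    have h4 : ∀ n : ℕ, ∀ v ∈ M, dY ^ n * v * (dY ^ n)⁻¹ ∈ M := by
      intro n
      induction n with
      | zero => intro v hv; simpa using hv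
      | succ n ih =>
        intro v hv
        have := hstep _ (ih v hv)
        rwa [show dY ^ (n + 1) * v * (dY ^ (n + 1))⁻¹ = dY * (dY ^ n * v * (dY ^ n)⁻¹) * dY⁻¹ by
          rw [pow_succ']; group]
    have := h4 4 _ hv
    rwa [show dY ^ 4 * (dY * v * dY⁻¹) * (dY ^ 4)⁻¹ = dY ^ 5 * v * (dY ^ 5)⁻¹ by
      rw [pow_succ dY 4]; group, h5', inv_one, one_mul, mul_one] at this
  let φ : normalizer (M : Set Y) →* MulAut M := M.normalizerMonoidHom
  have hcent : dY ∈ centralizer (M : Set Y) := by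
    set σ : MulAut M := φ ⟨dY, hMN⟩
    have hσ5 : σ ^ 5 = 1 := by
      rw [← map_pow, show (⟨dY, hMN⟩ : normalizer (M : Set Y)) ^ 5 = 1 from
        Subtype.ext (Subtype.ext (show d ^ 5 = 1 by rw [← hd, pow_orderOf_eq_one])), map_one]
    have hz : IsPGroup 5 (zpowers σ) := by
      rw [IsPGroup.iff_orderOf]
      intro g
      have h1 : orderOf g ∣ 5 := by
        rw [← Subgroup.orderOf_coe]
        refine (orderOf_dvd_of_pow_eq_one ?_)
        obtain ⟨i, hi⟩ := mem_zpowers_iff.mp g.2
        rw [← hi, ← zpow_natCast, ← zpow_mul, mul_comm, zpow_mul, zpow_natCast, hσ5, one_zpow]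
      rcases (Nat.dvd_prime (by norm_num)).mp h1 with h' | h'
      · exact ⟨0, by rw [h']; rfl⟩
      · exact ⟨1, by rw [h']; rfl⟩
    have hmod := hz.card_modEq_card_fixedPoints M
    set F : Subgroup M :=
      { carrier := {m | σ m = m}
        mul_mem' := fun {u v} hu hv => by
          show σ (u * v) = u * v
          rw [map_mul, show σ u = u from hu, show σ v = v from hv]
        one_mem' := map_one σ
        inv_mem' := fun {u} hu => by
          show σ u⁻¹ = u⁻¹
          rw [map_inv, show σ u = u from hu] } with hF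
    have hfix : Nat.card (fixedPoints (zpowers σ) M) = Nat.card F := by
      refine Nat.card_congr (Equiv.subtypeEquivRight fun m => ⟨fun hm => hm ⟨σ, mem_zpowers σ⟩, ?_⟩)
      intro hm g
      obtain ⟨g, hg⟩ := g
      have hstab : zpowers σ ≤ stabilizer (MulAut M) m := zpowers_le.mpr hm
      exact hstab hg
    rw [hfix, hMc, Nat.ModEq] at hmod
    have hdv := card_subgroup_dvd_card F
    rw [hMc] at hdv
    have hall : ∀ c < 10, c ∣ 9 → c % 5 = 4 → c = 9 := by decide
    have hF9 := hall _ (Nat.lt_succ_of_le (Nat.le_of_dvd (by norm_num) hdv)) hdv (by omega)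
    have hFtop : F = ⊤ := eq_top_of_card_eq F (by rw [hF9, hMc])
    rw [mem_centralizer_iff]
    intro v hv
    have h1 : σ ⟨v, hv⟩ = ⟨v, hv⟩ := (SetLike.ext_iff.mp hFtop ⟨v, hv⟩).mpr trivial
    have h2 := congrArg Subtype.val h1
    simp only [σ, φ, Subgroup.normalizerMonoidHom_apply_apply_coe] at h2
    exact (mul_inv_eq_iff_eq_mul.mp h2).symm
  have hle : M.map Y.subtype ≤ centralizer ({d} : Set G) := by
    rintro _ ⟨v, hv, rfl⟩
    rw [mem_centralizer_singleton_iff]
    exact congrArg Subtype.val (mem_centralizer_iff.mp hcent v hv)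
  have h9 := card_dvd_of_le hle
  rw [← Nat.card_congr (equivMapOfInjective _ _ Y.subtype_injective).toEquiv, hMc, hc] at h9
  norm_num at h9

end Cfsg.Agent.H28.Mid
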