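import Cfsg.Agent.H30.InvolutionEquation
import Cfsg.Agent.H30.SylowPrimeCases

/-!
# The class multiplication identity with the parity and the column bound
-/

set_option autoImplicit false

namespace Cfsg.Agent.H28.Mid

open Finset
open scoped ComplexConjugate

variable {G : Type*} [Group G] [Fintype G] [IsSimpleGroup G]

/-- A character value at an involution is congruent to the degree modulo two. -/
theorem value_parity {u : G} (hu : orderOf u = 2) (χ : Cfsg.IrrCharacter G) (d : ℕ)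
    (hd : χ.1 1 = (d : ℂ)) (a : ℤ) (ha : χ.1 u = (a : ℂ)) : (2 : ℤ) ∣ (d : ℤ) - a := by
  classical
  obtain ⟨n, ρ, hρ, e⟩ := χ.2
  obtain ⟨μ, hμ, hsum⟩ := H25.exists_char_eq_sum_roots ρ u
  rw [hu] at hμ
  have hone : χ.1 1 = (Module.finrank ℂ (Fin n → ℂ) : ℂ) := by rw [← e, ρ.char_one]
  have hdn : d = Module.finrank ℂ (Fin n → ℂ) := by exact_mod_cast hd.symm.trans hone
  let s : Fin (Module.finrank ℂ (Fin n → ℂ)) → ℤ := fun i => if μ i = 1 then 0 else 1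
  have hs : ∀ i, μ i = ((1 - 2 * s i : ℤ) : ℂ) := fun i => by
    rcases sq_eq_one_iff.mp (hμ i) with h | h <;> simp [s, h] <;> norm_num
  have hsum' : χ.1 u = ((∑ i, (1 - 2 * s i) : ℤ) : ℂ) := by
    rw [← e, hsum, Int.cast_sum]
    exact Finset.sum_congr rfl fun i _ => hs i
  have h : a = ∑ i, (1 - 2 * s i) := by exact_mod_cast ha.symm.trans hsum'
  refine ⟨∑ i, s i, ?_⟩
  rw [h, hdn, Finset.sum_sub_distrib, ← Finset.mul_sum]
  simp

/-- For `e = 2`: a signed degree `x` with, for every involution `u`, integers `A`, `L` satisfying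
`|G| (x - A)^2 = L |C(u)|^2 x (x - 1)`. -/
theorem involution_data_of_two (hG : ¬ IsMulCommutative G) {p : ℕ} [hp : Fact p.Prime]
    (hp2 : p ≠ 2) {z : G} (hz : orderOf z = p)
    (hC : Subgroup.centralizer ({z} : Set G) = Subgroup.zpowers z) (t : ℕ)
    (he : (H30.conjExps p z).card = 2) (het : 2 * t = p - 1) (ht : 2 ≤ t) :
    ∃ x : ℤ, 2 ≤ x.natAbs ∧ (p : ℤ) ∣ x + 1 ∧ x.natAbs ∣ Nat.card G ∧
      (1 - x).natAbs ∣ Nat.card G ∧ 2 ≤ (1 - x).natAbs ∧
      x ^ 2 + t * (1 - x) ^ 2 < Nat.card G ∧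
      ∀ u : G, orderOf u = 2 → ∃ (A : ℤ) (L : ℕ), |A| < |x| ∧ (2 : ℤ) ∣ x - A ∧
        1 + A ^ 2 + t * (1 - A) ^ 2 ≤ (Nat.card (Subgroup.centralizer ({u} : Set G)) : ℤ) ∧
        (Nat.card G : ℤ) * (x - A) ^ 2 =
          L * (Nat.card (Subgroup.centralizer ({u} : Set G)) : ℤ) ^ 2 * (x * (x - 1)) := by
  classical
  obtain ⟨d, c, K, ε, C, D, hε, hK, h1K, hd1, hc1, hKv, hq, hsum, hcong, hd, hsq, hdv, ⟨hvR, hvK⟩,
    hu⟩ := H30.degree_equation hG hz hC 2 t he het ht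
  set o := H26.oneIrr G
  set R := (univ.erase o) \ K with hR
  have hKsub : K ⊆ univ.erase o := fun k hk => mem_erase.mpr ⟨fun e => h1K (e ▸ hk), mem_univ k⟩
  have split : ∀ {M : Type} [AddCommMonoid M] (f : Cfsg.IrrCharacter G → M),
      ∑ χ, f χ = f o + (∑ χ ∈ R, f χ + ∑ χ ∈ K, f χ) := by
    intro M _ f
    rw [Finset.sum_sdiff hKsub, Finset.add_sum_erase _ _ (mem_univ o)]
  -- rewrite the data with `η = 2 C ε' + ε`, the effective exceptional sign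
  rw [split, hc1, Finset.sum_congr rfl (fun k hk => by rw [(hKv k hk).2] : ∀ k ∈ K, c k ^ 2 = C ^ 2),
    Finset.sum_const, hK, nsmul_eq_mul] at hq
  rw [split, hc1, hd1,
    Finset.sum_congr rfl (fun k hk => by rw [(hKv k hk).1, (hKv k hk).2] :
      ∀ k ∈ K, (d k : ℤ) * c k = (D : ℤ) * C),
    Finset.sum_const, hK, nsmul_eq_mul] at hsum
  push_cast at hq hsum
  have hRnn : 0 ≤ ∑ χ ∈ R, c χ ^ 2 := Finset.sum_nonneg fun χ _ => sq_nonneg _
  have ht2 : (2 : ℤ) ≤ t := by exact_mod_cast ht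
  have hCC : C = 0 ∨ (C = -ε ∧ t ≤ 3) := by
    by_cases h0 : C = 0
    · exact Or.inl h0
    · right
      have h1 : 1 ≤ C ^ 2 := by rcases lt_or_gt_of_ne h0 with h | h <;> nlinarith
      have h4 := mul_le_mul_of_nonneg_right ht2 (sq_nonneg C)
      have h2 : C = -ε := by
        rcases hε with rfl | rfl <;> nlinarith [sq_nonneg (C + 1), sq_nonneg (C - 1)]
      refine ⟨h2, ?_⟩
      subst h2
      rcases hε with rfl | rfl <;> norm_num at hq <;> omega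
  have hdata : ∃ η : ℤ, (η = 1 ∨ η = -1) ∧ (t : ℤ) * C + ε = η ∧ ∑ χ ∈ R, c χ ^ 2 = 1 := by
    rcases hCC with rfl | ⟨rfl, ht3⟩
    · exact ⟨ε, hε, by ring, by norm_num at hq; omega⟩
    · interval_cases t
      · refine ⟨-ε, by rcases hε with rfl | rfl <;> norm_num, by push_cast; ring, ?_⟩
        rcases hε with rfl | rfl <;> norm_num at hq ⊢ <;> omega
      · exfalso
        have hR0 : ∀ χ ∈ R, c χ = 0 := by
          intro χ hχ
          have h := Finset.single_le_sum (fun y _ => sq_nonneg (c y)) hχ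
          have : c χ ^ 2 ≤ 0 := by rcases hε with rfl | rfl <;> norm_num at hq <;> omega
          nlinarith
        rw [Finset.sum_eq_zero (s := R) fun χ hχ => by rw [hR0 χ hχ, mul_zero]] at hsum
        push_cast at hsum
        rcases hε with rfl | rfl <;> omega
  obtain ⟨η, hη, hηeq, hR1⟩ := hdata
  obtain ⟨χ₁, hχ₁, hne1⟩ : ∃ χ ∈ R, c χ ≠ 0 := by
    by_contra h
    push Not at h
    rw [Finset.sum_eq_zero fun χ hχ => by rw [h χ hχ]; norm_num] at hR1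
    norm_num at hR1
  rw [← Finset.add_sum_erase _ _ hχ₁] at hR1
  have hnn : 0 ≤ ∑ χ ∈ R.erase χ₁, c χ ^ 2 := Finset.sum_nonneg fun χ _ => sq_nonneg _
  have hsq1 : c χ₁ ^ 2 = 1 := by
    have : 1 ≤ c χ₁ ^ 2 := by
      rcases lt_or_gt_of_ne hne1 with h | h <;> nlinarith
    omega
  have hz0 : ∀ χ ∈ R.erase χ₁, c χ = 0 := fun χ hχ =>
    pow_eq_zero_iff (two_ne_zero) |>.mp
      (le_antisymm ((Finset.single_le_sum (fun y _ => sq_nonneg (c y)) hχ).trans (by omega))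
        (sq_nonneg _))
  have hc1' : c χ₁ = 1 ∨ c χ₁ = -1 := sq_eq_one_iff.mp hsq1
  obtain ⟨hχ1o, hχ1K⟩ := Finset.mem_sdiff.mp hχ₁
  have hne_o : χ₁ ≠ o := ne_of_mem_erase hχ1o
  rw [← Finset.add_sum_erase _ _ hχ₁,
    Finset.sum_eq_zero (s := R.erase χ₁) fun χ hχ => by rw [hz0 χ hχ, mul_zero]] at hsum
  set x : ℤ := (d χ₁ : ℤ) * c χ₁ with hx
  have hηD : η * (D : ℤ) = 1 - x := by rw [← hηeq]; linarith
  obtain ⟨k0, hk0⟩ := Finset.card_pos.mp (show 0 < K.card by omega)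
  have hDk : d k0 = D := (hKv k0 hk0).1
  have hk0o : k0 ≠ o := fun e => h1K (e ▸ hk0)
  have hge2 : ∀ χ, χ ≠ o → 2 ≤ d χ := fun χ hχ => by
    obtain ⟨a, -, b⟩ := hd χ
    by_contra h
    exact hχ (b (by omega))
  have hxabs : x.natAbs = d χ₁ := by rcases hc1' with h | h <;> simp [hx, h]
  have hDabs : (1 - x).natAbs = D := by rw [← hηD]; rcases hη with h | h <;> simp [h]
  refine ⟨x, hxabs ▸ hge2 χ₁ hne_o, ?_, hxabs ▸ (hd χ₁).2.1, hDabs ▸ hDk ▸ (hd k0).2.1,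
    hDabs ▸ hDk ▸ hge2 k0 hk0o, ?_, ?_⟩
  · obtain ⟨q, hq'⟩ := (hcong χ₁).2 hχ1K
    rcases hc1' with h | h <;> rw [h] at hq'
    · exact ⟨q, by rw [hx, h, mul_one]; exact hq'⟩
    · exact ⟨-q, by rw [hx, h, mul_neg, mul_one, mul_neg]; linarith⟩
  · have h1 : 1 + (d χ₁ ^ 2 + t * D ^ 2) ≤ ∑ χ, d χ ^ 2 := by
      rw [← Finset.add_sum_erase _ _ (mem_univ o), hd1, ← Finset.sum_sdiff hKsub,
        Finset.sum_congr rfl (fun k hk => by rw [(hKv k hk).1] : ∀ k ∈ K, d k ^ 2 = D ^ 2),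
        Finset.sum_const, hK, smul_eq_mul, one_pow]
      gcongr
      exact Finset.single_le_sum (fun y _ => Nat.zero_le (d y ^ 2)) hχ₁
    rw [hsq] at h1
    have h2 : x ^ 2 = (d χ₁ : ℤ) ^ 2 := by rw [hx, mul_pow, hsq1, mul_one]
    have h3 : (1 - x) ^ 2 = (D : ℤ) ^ 2 := by
      rw [← hηD, mul_pow]; rcases hη with h | h <;> simp [h]
    rw [h2, h3]
    exact_mod_cast (by omega : d χ₁ ^ 2 + t * D ^ 2 < Nat.card G)
  intro u hu2
  have hnc : ∀ i : ℕ, ¬ IsConj u (z ^ i) := by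
    intro i h
    obtain ⟨g, hg⟩ := isConj_iff.mp h
    have h1 : orderOf (z ^ i) = 2 := by
      rw [← hg, ← hu2]
      exact orderOf_injective (MulAut.conj g).toMonoidHom (MulAut.conj g).injective u
    have h2 : orderOf (z ^ i) ∣ p := hz ▸ orderOf_pow_dvd i
    rw [h1] at h2
    exact hp2 ((Nat.prime_dvd_prime_iff_eq Nat.prime_two hp.out).mp h2).symm
  obtain ⟨θ, hθ, hor⟩ := hu u hnc
  obtain ⟨a, ha, ha'⟩ := H30.exists_int_value_involution hG hu2 χ₁ (d χ₁) (hdv χ₁)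
  set A : ℤ := a * c χ₁ with hA
  have hsumθ : (η : ℂ) * θ = 1 - (A : ℂ) := by
    rw [split, ← Finset.add_sum_erase _ _ hχ₁,
      Finset.sum_eq_zero (s := R.erase χ₁) fun χ hχ => by rw [hz0 χ hχ, Int.cast_zero, mul_zero],
      Finset.sum_congr rfl (fun k hk => by rw [hθ k hk, (hKv k hk).2] :
        ∀ k ∈ K, k.1 u * (c k : ℂ) = θ * (C : ℂ)),
      Finset.sum_const, hK, nsmul_eq_mul, hc1, ha] at hor
    simp only [H26.oneIrr_val, o] at hor
    rw [← hηeq]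
    push_cast [hA] at hor ⊢
    linear_combination hor
  set P := {q : G × G // IsConj u q.1 ∧ IsConj u q.2 ∧ q.1 * q.2 = z}
  refine ⟨A, Nat.card P, ?_, ?_, ?_, ?_⟩
  · rw [hA, hx, abs_mul, abs_mul, Nat.abs_cast]
    have h1 : |c χ₁| = 1 := by rcases hc1' with h | h <;> simp [h]
    rw [h1, mul_one, mul_one]
    exact ha' hne_o
  · obtain ⟨q, hq'⟩ := value_parity hu2 χ₁ (d χ₁) (hdv χ₁) a ha
    exact ⟨q * c χ₁, by rw [hA, hx, ← sub_mul, hq']; ring⟩
  · have horth := H26.column_orthogonality u u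
    rw [H26.classIndicator, if_pos (IsConj.refl u), mul_one] at horth
    have hre := congrArg Complex.re horth
    rw [Complex.natCast_re, Complex.re_sum] at hre
    have hnn : ∀ χ : Cfsg.IrrCharacter G, 0 ≤ (χ.1 u * conj (χ.1 u)).re := fun χ => by
      rw [Complex.mul_conj, Complex.ofReal_re]; exact Complex.normSq_nonneg _
    have hKval : ∀ k ∈ K, (k.1 u * conj (k.1 u)).re = ((1 - A : ℤ) : ℝ) ^ 2 := by
      intro k hk
      have hη2 : (η : ℂ) * (η : ℂ) = 1 := by rcases hη with h | h <;> simp [h]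
      have h : k.1 u = ((η * (1 - A) : ℤ) : ℂ) := by
        rw [hθ k hk]; push_cast; linear_combination (η : ℂ) * hsumθ - θ * hη2
      rw [h, Complex.mul_conj, Complex.normSq_intCast, Complex.ofReal_re]
      rcases hη with e | e <;> rw [e] <;> push_cast <;> ring
    have hR : ∀ χ, χ ∈ R → (χ.1 u * conj (χ.1 u)).re ≥ 0 := fun χ _ => hnn χ
    rw [split, ← Finset.add_sum_erase _ _ hχ₁, Finset.sum_congr rfl hKval, Finset.sum_const, hK,
      nsmul_eq_mul] at hre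
    have h0 : (o.1 u * conj (o.1 u)).re = (1 : ℝ) := by simp [o, H26.oneIrr_val]
    have h1 : (χ₁.1 u * conj (χ₁.1 u)).re = (A : ℝ) ^ 2 := by
      rw [ha, Complex.mul_conj, Complex.normSq_intCast, Complex.ofReal_re, hA]
      rcases hc1' with e | e <;> rw [e] <;> push_cast <;> ring
    have hrest : 0 ≤ ∑ χ ∈ R.erase χ₁, (χ.1 u * conj (χ.1 u)).re :=
      Finset.sum_nonneg fun χ _ => hnn χ
    rw [h0, h1] at hre
    have hle : (1 : ℝ) + (A : ℝ) ^ 2 + (t : ℝ) * ((1 - A : ℤ) : ℝ) ^ 2 ≤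
        (Nat.card (Subgroup.centralizer ({u} : Set G)) : ℝ) := by linarith
    exact_mod_cast hle
  have hform := H38.class_coeff u u z
  set Cu := Nat.card (Subgroup.centralizer ({u} : Set G)) with hCu
  have hclass : (Nat.card {y : G // IsConj u y} : ℂ) * (Cu : ℂ) = (Nat.card G : ℂ) := by
    have := (Subgroup.centralizer ({u} : Set G)).index_mul_card
    rw [H25.index_centralizer_eq_card_class] at this
    exact_mod_cast this
  have hterm : ∑ χ : Cfsg.IrrCharacter G, χ.1 u * χ.1 u * conj (χ.1 z) / χ.1 1 =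
      1 - (A : ℂ) ^ 2 / (x : ℂ) - (η : ℂ) * θ ^ 2 / (D : ℂ) := by
    rw [split, ← Finset.add_sum_erase _ _ hχ₁, hdv o, hd1,
      Finset.sum_eq_zero (s := R.erase χ₁) (fun χ hχ => by
        rw [hvR χ (Finset.mem_sdiff.mp (mem_of_mem_erase hχ)).2, hz0 χ hχ]
        simp)]
    have hKsum : ∑ k ∈ K, k.1 u * k.1 u * conj (k.1 z) / k.1 1 =
        θ ^ 2 / (D : ℂ) * conj (∑ k ∈ K, k.1 z) := by
      rw [map_sum, Finset.mul_sum]
      refine Finset.sum_congr rfl fun k hk => ?_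
      rw [hθ k hk, hdv k, (hKv k hk).1]
      ring
    rw [hKsum, hvK, hvR χ₁ hχ1K, ha, hdv χ₁]
    simp only [o, H26.oneIrr_val, map_one, map_neg, map_add, map_mul, map_intCast, map_natCast,
      Nat.cast_one, div_one, mul_one, add_zero]
    rw [hA, hx, ← hηeq]
    push_cast
    have hd0 : (d χ₁ : ℂ) ≠ 0 := Nat.cast_ne_zero.mpr (hd χ₁).1.ne'
    rcases hc1' with h | h <;> rw [h] <;> push_cast <;> field_simp <;> ring
  rw [hterm] at hform
  have hD0 : (D : ℂ) ≠ 0 := Nat.cast_ne_zero.mpr (hDk ▸ (hd k0).1).ne'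
  have hG0 : (Nat.card G : ℂ) ≠ 0 := Nat.cast_ne_zero.mpr Nat.card_pos.ne'
  have hη2 : (η : ℂ) ^ 2 = 1 := by rcases hη with h | h <;> simp [h]
  have hηD' : (η : ℂ) * (D : ℂ) = 1 - (x : ℂ) := by exact_mod_cast hηD
  have hθD : (η : ℂ) * θ ^ 2 / (D : ℂ) = (1 - (A : ℂ)) ^ 2 / (1 - (x : ℂ)) := by
    rw [← hsumθ, ← hηD']
    have hη0 : (η : ℂ) ≠ 0 := by rcases hη with h | h <;> simp [h]
    field_simp
  rw [hθD] at hform
  have hx0 : (x : ℂ) ≠ 0 := Int.cast_ne_zero.mpr (by intro h; have := hge2 χ₁ hne_o; omega)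
  have hx1 : (1 : ℂ) - (x : ℂ) ≠ 0 := by
    rw [← hηD']
    exact mul_ne_zero (by rcases hη with h | h <;> simp [h]) hD0
  have hCu0 : (Cu : ℂ) ≠ 0 := Nat.cast_ne_zero.mpr Nat.card_pos.ne'
  have hcl : (Nat.card {y : G // IsConj u y} : ℂ) = (Nat.card G : ℂ) / (Cu : ℂ) := by
    rw [eq_div_iff hCu0, hclass]
  rw [hcl] at hform
  have goal' : (Nat.card G : ℂ) * ((x : ℂ) - A) ^ 2 =
      (Nat.card P : ℂ) * (Cu : ℂ) ^ 2 * ((x : ℂ) * ((x : ℂ) - 1)) := by
    rw [hform]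
    field_simp
    ring
  exact_mod_cast goal'

end Cfsg.Agent.H28.Mid
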