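import Cfsg.Agent.H28.SmallOrders.DegreeSearch5040

/-!
# The integer search for order 1512
-/

set_option autoImplicit false
set_option synthInstance.maxSize 1024

namespace Cfsg.Agent.H28.Mid

/-- The possible items. -/
def items1512 : List (ℕ × ℤ) := [(6, -1), (8, 1), (9, 2), (12, -2), (27, -1), (36, 1)]

/-- The possible values at an involution of a character of degree `d`. -/
def values1512 (d : ℕ) : List ℤ :=
  ((List.range 15).map fun i : ℕ => (i : ℤ) - 7).filter
    fun a => decide (a.natAbs < d ∧ (4 : ℤ) ∣ (d : ℤ) - a)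

theorem mem_values1512 {d : ℕ} {a : ℤ} (h : |a| < (d : ℤ)) (h4 : (4 : ℤ) ∣ (d : ℤ) - a)
    (h7 : a * a ≤ 51) : a ∈ values1512 d := by
  have h1 : -7 ≤ a ∧ a ≤ 7 := ⟨by nlinarith, by nlinarith⟩
  rw [Int.abs_eq_natAbs] at h
  rw [values1512, List.mem_filter]
  refine ⟨List.mem_map.mpr ⟨(a + 7).toNat, List.mem_range.mpr (by omega), ?_⟩, ?_⟩
  · omega
  · simp only [decide_eq_true_eq]
    exact ⟨by omega, h4⟩

/-- The final test. -/
def leaf1512 (S v q : ℤ) : Bool :=
  decide (S = -1 → ∀ C ∈ ([3, 6, 9, 12, 18, 21, 24, 27, 36, 42] : List ℕ), 1 + q ≤ (C : ℤ) →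
    (C : ℤ) * C ≠ v)

/-- Run over all values, accumulating `∑ a c`, `216 ∑ a² c / d` and `∑ a²`. -/
def search : List (ℕ × ℤ) → ℤ → ℤ → ℤ → Bool
  | [], S, v, q => leaf1512 S v q
  | p :: l, S, v, q => (values1512 p.1).all fun a =>
      decide (51 < q + a * a) ||
        search l (S + a * p.2) (v + 216 * p.2 / p.1 * (a * a)) (q + a * a)

theorem search_sound {α : Type*} (item : α → ℕ × ℤ) (val : α → ℤ) :
    ∀ (L : List α) (S v q : ℤ), search (L.map item) S v q = true →
      (∀ i ∈ L, val i ∈ values1512 (item i).1) →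
      q + (L.map fun i => val i * val i).sum ≤ 51 →
      leaf1512 (S + (L.map fun i => val i * (item i).2).sum)
        (v + (L.map fun i => 216 * (item i).2 / (item i).1 * (val i * val i)).sum)
        (q + (L.map fun i => val i * val i).sum) = true
  | [], S, v, q, h, _, _ => by simpa [search] using h
  | i :: L, S, v, q, h, hr, hq => by
    simp only [List.map_cons, List.sum_cons] at hq ⊢
    have hnn : 0 ≤ (L.map fun i => val i * val i).sum := List.sum_nonneg fun x hx => by
      obtain ⟨j, -, rfl⟩ := List.mem_map.mp hx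
      exact mul_self_nonneg _
    rw [List.map_cons, search, List.all_eq_true] at h
    have h1 := h (val i) (hr i (List.mem_cons_self ..))
    rw [Bool.or_eq_true, decide_eq_true_eq] at h1
    have h2 := search_sound item val L _ _ _
      (h1.resolve_left (by linarith)) (fun j hj => hr j (List.mem_cons_of_mem _ hj)) (by linarith)
    simpa only [add_assoc] using h2

theorem mem_divisors1512 : ∀ k < 52, k ∣ 1512 → 3 ∣ k →
    k ∈ ([3, 6, 9, 12, 18, 21, 24, 27, 36, 42] : List ℕ) := by
  decide +kernel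

theorem item_mem1512 : ∀ d : ℕ, d < 39 → ∀ c ∈ [(-2 : ℤ), -1, 1, 2], d ∣ 1512 → 2 ≤ d →
    (7 : ℤ) ∣ (d : ℤ) - c → (d : ℤ) ≠ c → (d, c) ∈ items1512 := by
  decide +kernel

theorem items1512_bound : ∀ p ∈ items1512, 216 * p.2 / (p.1 : ℤ) ≤ 48 ∧ p.2 ≠ 0 ∧
    (p.1 : ℤ) * (216 * p.2 / p.1) = 216 * p.2 := by
  decide +kernel

theorem search1512 : ∀ l ∈ H28.SmallOrders.itemConfigs items1512 6,
    (l.map fun p => (p.1 : ℤ) * p.2).sum = -1 → (l.map fun p => p.1 * p.1).sum < 1512 →
      search l 0 216 0 = true := by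
  decide +kernel

end Cfsg.Agent.H28.Mid
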