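import Cfsg.Agent.H28.SmallOrders.RationalColumn
import Cfsg.Agent.H30.GLTwoThreeLocal
import Cfsg.Agent.H28.SmallOrders.Mid.Search1512
import Cfsg.Agent.H28.SmallOrders.Mid.CasesA

/-!
# No simple group of order 1512
-/

set_option autoImplicit false
set_option synthInstance.maxSize 1024

namespace Cfsg.Agent.H28.Mid

open Finset H28.SmallOrders

variable {G : Type*} [Group G] [Fintype G]

/-- An element inverting an element of order seven with normalizer of order 42 centralises an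
element of order three. -/
theorem three_dvd_centralizer {z s : G} (hz : orderOf z = 7)
    (hC : Subgroup.centralizer ({z} : Set G) = Subgroup.zpowers z)
    (hN : Nat.card (Subgroup.normalizer (Subgroup.zpowers z : Set G)) = 42) (hs : orderOf s = 2)
    (hinv : s * z * s⁻¹ = z⁻¹) : 3 ∣ Nat.card (Subgroup.centralizer ({s} : Set G)) := by
  classical
  have : Fact (Nat.Prime 3) := ⟨Nat.prime_three⟩
  have : Fact (Nat.Prime 2) := ⟨Nat.prime_two⟩
  set N := Subgroup.normalizer (Subgroup.zpowers z : Set G) with hNdef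
  have hsN : s ∈ N := by
    rw [hNdef, Subgroup.mem_normalizer_iff]
    intro y
    constructor
    · intro hy
      obtain ⟨i, rfl⟩ := Subgroup.mem_zpowers_iff.mp hy
      rw [← conj_zpow, hinv]
      exact Subgroup.zpow_mem _ (inv_mem (Subgroup.mem_zpowers z)) i
    · intro hy
      obtain ⟨i, hi⟩ := Subgroup.mem_zpowers_iff.mp hy
      have : y = (z ^ i)⁻¹ := by
        have h2 : s * (z ^ i)⁻¹ * s⁻¹ = z ^ i := by rw [← zpow_neg, ← conj_zpow, hinv]; simp
        have h3 : s * y * s⁻¹ = s * (z ^ i)⁻¹ * s⁻¹ := by rw [h2]; exact hi.symm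
        exact mul_left_cancel (mul_right_cancel h3)
      rw [this]
      exact inv_mem (Subgroup.zpow_mem _ (Subgroup.mem_zpowers z) i)
  set σ : N := ⟨s, hsN⟩
  have hdvd3 := H30.card_sylow_dvd (G := N) (p := 3) (a := 1) (m := 14)
    (by rw [hN]; norm_num) (by norm_num)
  have hmod3 : Nat.card (Sylow 3 N) % 3 = 1 := by
    have := card_sylow_modEq_one 3 N
    rwa [Nat.ModEq, Nat.mod_eq_of_lt (by norm_num : 1 < 3)] at this
  have hodd : ¬ 2 ∣ Nat.card (Sylow 3 N) := by
    have hall : ∀ k < 15, k ∣ 14 → k % 3 = 1 → ¬ 2 ∣ k := by decide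
    exact hall _ (Nat.lt_succ_of_le (Nat.le_of_dvd (by norm_num) hdvd3)) hdvd3 hmod3
  have hz2 : IsPGroup 2 (Subgroup.zpowers σ) :=
    IsPGroup.of_card (n := 1) (by rw [Nat.card_zpowers, Subgroup.orderOf_mk, hs, pow_one])
  obtain ⟨S, hS⟩ := hz2.nonempty_fixed_point_of_prime_not_dvd_card (Sylow 3 N) hodd
  have hσS : σ ∈ Subgroup.normalizer ((S : Subgroup N) : Set N) :=
    Sylow.smul_eq_iff_mem_normalizer.mp (hS ⟨σ, Subgroup.mem_zpowers σ⟩)
  have hS3 : Nat.card (S : Subgroup N) = 3 := by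
    simpa using H30.card_sylow_subgroup (a := 1) (m := 14) S (by rw [hN]; norm_num) (by norm_num)
  obtain ⟨w0, hw0⟩ := exists_prime_orderOf_dvd_card' (G := (S : Subgroup N)) 3 (dvd_of_eq hS3.symm)
  set w : G := (((w0 : N)) : G) with hw
  have hwo : orderOf w = 3 := by rw [hw, Subgroup.orderOf_coe, Subgroup.orderOf_coe, hw0]
  have hmem : σ * (w0 : N) * σ⁻¹ ∈ Subgroup.zpowers (w0 : N) := by
    have h1 : σ * (w0 : N) * σ⁻¹ ∈ (S : Subgroup N) := (Subgroup.mem_normalizer_iff.mp hσS _).mp w0.2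
    have h2 : Subgroup.zpowers (w0 : N) = (S : Subgroup N) :=
      Subgroup.eq_of_le_of_card_ge (Subgroup.zpowers_le.mpr w0.2)
        (by rw [hS3, Nat.card_zpowers, Subgroup.orderOf_coe, hw0])
    rw [h2]; exact h1
  obtain ⟨i, hi, hwi⟩ : ∃ i < 3, w ^ i = s * w * s⁻¹ := by
    rw [mem_zpowers_iff_mem_range_orderOf, Subgroup.orderOf_coe, hw0] at hmem
    obtain ⟨i, hi, hwi⟩ := Finset.mem_image.mp hmem
    refine ⟨i, Finset.mem_range.mp hi, ?_⟩
    have h3 := congrArg Subtype.val hwi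
    simpa [hw, σ] using h3
  have hw3 : w ^ 3 = 1 := by rw [← hwo, pow_orderOf_eq_one]
  have hi1 : i = 1 := by
    rcases (show i = 0 ∨ i = 1 ∨ i = 2 by omega) with rfl | rfl | rfl
    · rw [pow_zero, eq_comm, conj_eq_one_iff] at hwi
      rw [hwi, orderOf_one] at hwo
      omega
    · rfl
    · exfalso
      have hwN : w ∈ N := (w0 : N).2
      obtain ⟨j, hj⟩ := Subgroup.mem_zpowers_iff.mp
        ((Subgroup.mem_normalizer_iff.mp hwN z).mp (Subgroup.mem_zpowers z))
      have hsi : s⁻¹ = s :=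
        inv_eq_of_mul_eq_one_right (by rw [← pow_two, ← hs, pow_orderOf_eq_one])
      have hinv' : s⁻¹ * z * s = z⁻¹ := by rw [← hinv, hsi]
      have h4 : w ^ 2 * z * (w ^ 2)⁻¹ = w * z * w⁻¹ := by
        rw [hwi]
        calc s * w * s⁻¹ * z * (s * w * s⁻¹)⁻¹ = s * (w * (s⁻¹ * z * s) * w⁻¹) * s⁻¹ := by group
          _ = s * (w * z * w⁻¹)⁻¹ * s⁻¹ := by rw [hinv', ← conj_inv]
          _ = (s * z ^ j * s⁻¹)⁻¹ := by rw [← hj, conj_inv]
          _ = ((s * z * s⁻¹) ^ j)⁻¹ := by rw [conj_zpow]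
          _ = z ^ j := by rw [hinv, inv_zpow, inv_inv]
          _ = w * z * w⁻¹ := hj
      have h5 : w ∈ Subgroup.centralizer ({z} : Set G) := by
        rw [Subgroup.mem_centralizer_singleton_iff]
        have h6 : w⁻¹ * (w ^ 2 * z * (w ^ 2)⁻¹) * w = w⁻¹ * (w * z * w⁻¹) * w := by rw [h4]
        rw [show w⁻¹ * (w ^ 2 * z * (w ^ 2)⁻¹) * w = w * z * w⁻¹ by rw [pow_two]; group,
          show w⁻¹ * (w * z * w⁻¹) * w = z by group] at h6
        exact mul_inv_eq_iff_eq_mul.mp h6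
      rw [hC] at h5
      have h7 := orderOf_dvd_natCard (⟨w, h5⟩ : Subgroup.zpowers z)
      rw [Subgroup.orderOf_mk, hwo, Nat.card_zpowers, hz] at h7
      norm_num at h7
  subst hi1
  rw [pow_one] at hwi
  have hmemC : w ∈ Subgroup.centralizer ({s} : Set G) := by
    rw [Subgroup.mem_centralizer_singleton_iff]
    exact (mul_inv_eq_iff_eq_mul.mp hwi.symm).symm
  have := orderOf_dvd_natCard (⟨w, hmemC⟩ : Subgroup.centralizer ({s} : Set G))
  rwa [Subgroup.orderOf_mk, hwo] at this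

variable [IsSimpleGroup G]

set_option maxHeartbeats 1000000 in
theorem not_1512' (hG : ¬ IsMulCommutative G) (hcard : Nat.card G = 1512) : False := by
  classical
  have : Fact (Nat.Prime 7) := ⟨by norm_num⟩
  set P : Sylow 7 G := default
  obtain ⟨hP, n, e, K, hm, -, -, -, -, -, -, -, -, hC', hN', -, -⟩ :=
    H28.Range6232.prime_options hG 7 216 (by norm_num) (by rw [hcard]) (by norm_num) P
  obtain ⟨x, hx, hxP⟩ := H28.Range6232.exists_generator P hP
  have hc7 := S1001.result (G := G) 7 3 3 (by norm_num) (by rw [hcard]; norm_num) x hx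
  have hC7 : Nat.card (Subgroup.centralizer ((P : Subgroup G) : Set G)) = 7 := by
    rw [H28.Range6232.centralizer_of_zpowers hxP, hc7, Nat.card_zpowers, hx]
  have h1 : ∀ t ∈ H28.Range6232.primeOpts 7 216, t.2.2 = 1 → t.2.1 = 6 := by decide +kernel
  have hK : K = 1 := by omega
  have he6 : e = 6 := h1 _ hm hK
  subst he6; subst hK
  obtain ⟨z, hz, hC, he⟩ := H30.exists_self_centralizing 7 6 P hP hC7 (by rw [hN'])
  obtain ⟨d, c, hd, hc, hdo, hco, hdf, hcong, hc2, hdc, hd2, hu⟩ :=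
    rational_column hG hz hC (by rw [he])
  obtain ⟨u, hu2, hL⟩ := H28.SmallOrders.exists_inverting_involution hz hC (by rw [he]) (by norm_num)
  have h3u : 3 ∣ Nat.card (Subgroup.centralizer ({u} : Set G)) := by
    have hne : Nonempty {q : G × G // IsConj u q.1 ∧ IsConj u q.2 ∧ q.1 * q.2 = z} :=
      (Nat.card_pos_iff.mp (by omega : 0 < Nat.card _)).1
    obtain ⟨⟨q1, q2⟩, hq1, hq2, hq⟩ := hne
    simp only at hq1 hq2 hq
    obtain ⟨g, hg⟩ := isConj_iff.mp hq1
    obtain ⟨g', hg'⟩ := isConj_iff.mp hq2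
    have huu : u * u = 1 := by rw [← pow_two, ← hu2, pow_orderOf_eq_one]
    have h11 : q1 * q1 = 1 := by rw [← hg, conj_mul, huu, mul_one, mul_inv_cancel]
    have h22 : q2 * q2 = 1 := by rw [← hg', conj_mul, huu, mul_one, mul_inv_cancel]
    have hs : orderOf q1 = 2 := by
      rw [← hg, ← hu2]
      exact orderOf_injective (MulAut.conj g).toMonoidHom (MulAut.conj g).injective u
    have hinv : q1 * z * q1⁻¹ = z⁻¹ := by
      rw [← hq, mul_inv_rev, inv_eq_of_mul_eq_one_right h11, inv_eq_of_mul_eq_one_right h22,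
        ← mul_assoc q1 q1 q2, h11, one_mul]
    have hN : Nat.card (Subgroup.normalizer (Subgroup.zpowers z : Set G)) = 42 := by
      rw [H30.card_normalizer_zpowers hz hC, he]
    have h3 := three_dvd_centralizer hz hC hN hs hinv
    rwa [← hg, H30.GLTwoThree.conj_centralizer_card] at h3
  obtain ⟨a, hao, ha4, hac, ha2, hform⟩ := hu u hu2 (by norm_num)
  set o := H26.oneIrr G
  set R := (univ.erase o).filter fun χ => c χ ≠ 0 with hR
  have hsplit : ∀ {M : Type} [AddCommMonoid M] (f : Cfsg.IrrCharacter G → M),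
      (∀ χ, c χ = 0 → f χ = 0) → ∑ χ, f χ = f o + ∑ χ ∈ R, f χ := by
    intro M _ f hf
    rw [← Finset.add_sum_erase _ _ (mem_univ o), hR, Finset.sum_filter_of_ne]
    intro χ _ hne h0
    exact hne (hf χ h0)
  rw [hsplit (fun χ => c χ ^ 2) (fun χ h => by simp [h]), hco] at hc2
  rw [hsplit (fun χ => (d χ : ℤ) * c χ) (fun χ h => by simp [h]), hdo, hco] at hdc
  rw [hsplit (fun χ => a χ * c χ) (fun χ h => by simp [h]), hao, hco] at hac
  rw [hcard, hL, hsplit (fun χ => (a χ : ℚ) ^ 2 * c χ / d χ) (fun χ h => by simp [h]), hao, hco,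
    hdo] at hform
  push_cast at hc2 hdc hform
  have hd2le : ∑ χ ∈ R, d χ * d χ + 1 ≤ 1512 := by
    have h := Finset.sum_le_sum_of_subset (f := fun χ => d χ * d χ)
      (Finset.filter_subset (fun χ => c χ ≠ 0) (univ.erase o))
    rw [← hcard, ← hd2, ← Finset.add_sum_erase _ _ (mem_univ o), hdo, one_pow]
    simp only [sq]
    linarith [h]
  have hitem : ∀ χ ∈ R, (d χ, c χ) ∈ items1512 := by
    intro χ hχ
    obtain ⟨hχo, hne0⟩ := mem_filter.mp hχ
    obtain ⟨-, hdvd, hlin⟩ := hdf χ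
    have hne := ne_of_mem_erase hχo
    have h2 : 2 ≤ d χ := by
      by_contra h
      exact hne (hlin (by have := (hdf χ).1; omega))
    have h39 : d χ < 39 := by
      by_contra h
      have h1 := Finset.single_le_sum (f := fun ψ => d ψ * d ψ) (fun ψ _ => Nat.zero_le _) hχ
      have h3 : 39 * 39 ≤ d χ * d χ := Nat.mul_le_mul (not_lt.mp h) (not_lt.mp h)
      omega
    have h6 : c χ ^ 2 ≤ 6 := by
      have h1 := Finset.single_le_sum (f := fun ψ => c ψ ^ 2) (fun ψ _ => sq_nonneg _) hχ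
      linarith
    have hcmem : c χ ∈ [(-2 : ℤ), -1, 1, 2] := by
      have : -2 ≤ c χ ∧ c χ ≤ 2 := ⟨by nlinarith, by nlinarith⟩
      simp only [List.mem_cons, List.not_mem_nil, or_false]
      omega
    exact item_mem1512 _ h39 _ hcmem (hcard ▸ hdvd) h2 (hcong χ).1 ((hcong χ).2 hne)
  have hweight : (R.toList.map fun χ => (c χ).natAbs ^ 2).sum = 6 := by
    rw [Finset.sum_map_toList]
    have : ((∑ χ ∈ R, (c χ).natAbs ^ 2 : ℕ) : ℤ) = 6 := by
      push_cast
      simp only [sq_abs]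
      linarith
    exact_mod_cast this
  obtain ⟨L, hL', hconf⟩ := itemConfigs_complete (fun χ => (d χ, c χ)) items1512 R.toList 6
    (fun p hp => (items1512_bound p hp).2.1)
    (fun χ hχ => hitem χ (Finset.mem_toList.mp hχ)) hweight
  have hsumL : ∀ {M : Type} [AddCommMonoid M] (f : Cfsg.IrrCharacter G → M),
      (L.map f).sum = ∑ χ ∈ R, f χ := by
    intro M _ f
    rw [(hL'.map f).sum_eq, Finset.sum_map_toList]
  set l := L.map fun χ => (d χ, c χ) with hl
  have hD : (l.map fun p => p.1 * p.1).sum = ∑ χ ∈ R, d χ * d χ := by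
    rw [hl, List.map_map, ← hsumL]; rfl
  have hsum : (l.map fun p => (p.1 : ℤ) * p.2).sum = -1 := by
    rw [hl, List.map_map]
    refine (hsumL fun χ => (d χ : ℤ) * c χ).trans ?_
    linarith
  have hsearch := search1512 l hconf hsum (by rw [hD]; omega)
  set Cu := Nat.card (Subgroup.centralizer ({u} : Set G)) with hCu
  set q := ∑ χ ∈ R, a χ * a χ with hq
  have hsplit_sq : ∑ χ, a χ ^ 2 = 1 + q + ∑ χ ∈ (univ.erase o) \ R, a χ * a χ := by
    rw [← Finset.add_sum_erase _ _ (mem_univ o), hao, one_pow,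
      ← Finset.sum_sdiff (Finset.filter_subset (fun χ => c χ ≠ 0) (univ.erase o))]
    simp only [hq, hR, sq]
    ring
  have hqC : 1 + q ≤ (Cu : ℤ) := by
    rw [← ha2, hsplit_sq]
    have : 0 ≤ ∑ χ ∈ (univ.erase o) \ R, a χ * a χ := Finset.sum_nonneg fun χ _ => mul_self_nonneg _
    linarith
  set V := ∑ χ ∈ R, 216 * c χ / (d χ : ℤ) * (a χ * a χ) with hV
  have hVeq : (Cu : ℤ) * Cu = 216 + V := by
    have h1 : (V : ℚ) = 216 * ∑ χ ∈ R, (a χ : ℚ) ^ 2 * c χ / d χ := by
      rw [hV, Int.cast_sum, Finset.mul_sum]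
      refine Finset.sum_congr rfl fun χ hχ => ?_
      have hk : ((d χ : ℤ) : ℚ) * ((216 * c χ / (d χ : ℤ) : ℤ) : ℚ) = 216 * (c χ : ℚ) := by
        exact_mod_cast (items1512_bound _ (hitem χ hχ)).2.2
      have hd0 : (d χ : ℚ) ≠ 0 := Nat.cast_ne_zero.mpr (hdf χ).1.ne'
      rw [Int.cast_mul, Int.cast_mul]
      push_cast at hk
      field_simp
      linear_combination (a χ : ℚ) ^ 2 * hk
    have : (((Cu : ℤ) * Cu : ℤ) : ℚ) = ((216 + V : ℤ) : ℚ) := by
      push_cast
      rw [h1]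
      linear_combination (-1 / 7 : ℚ) * hform
    exact_mod_cast this
  have hV48 : V ≤ 48 * q := by
    rw [hV, hq, Finset.mul_sum]
    exact Finset.sum_le_sum fun χ hχ =>
      mul_le_mul_of_nonneg_right (items1512_bound _ (hitem χ hχ)).1 (mul_self_nonneg _)
  have hCu52 : Cu < 52 := by
    by_contra h
    have h52 : (52 : ℤ) ≤ Cu := by exact_mod_cast (not_lt.mp h)
    nlinarith
  have hqs : (L.map fun χ => a χ * a χ).sum = q := hsumL _
  have hq51 : q ≤ 51 := by
    have : (Cu : ℤ) ≤ 51 := by exact_mod_cast (by omega : Cu ≤ 51)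
    linarith
  have hvals : ∀ χ ∈ L, a χ ∈ values1512 (d χ) := by
    intro χ hχ
    have hχR : χ ∈ R := Finset.mem_toList.mp (hL'.mem_iff.mp hχ)
    refine mem_values1512 ((ha4 χ).2 (ne_of_mem_erase (mem_filter.mp hχR).1)) (ha4 χ).1 ?_
    have h1 := Finset.single_le_sum (f := fun ψ => a ψ * a ψ) (fun ψ _ => mul_self_nonneg _) hχR
    linarith
  have hleaf := search_sound (fun χ => (d χ, c χ)) a L 0 216 0 hsearch hvals
    (by rw [hqs]; linarith)
  rw [leaf1512, decide_eq_true_eq, hqs, hsumL, hsumL, zero_add, zero_add] at hleaf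
  exact hleaf (by linarith) Cu
    (mem_divisors1512 _ hCu52 (hcard ▸ Subgroup.card_subgroup_dvd_card _) h3u) hqC hVeq

omit [Fintype G] in
theorem not_1512 [Finite G] (hG : ¬ IsMulCommutative G) (hcard : Nat.card G = 1512) : False := by
  let _ : Fintype G := Fintype.ofFinite G
  exact not_1512' hG hcard

end Cfsg.Agent.H28.Mid
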