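import Cfsg.Agent.H28.SmallOrders.Range.Helpers
import Cfsg.Agent.H28.SmallOrders.Mid.InvolutionData

/-!
# Tools for the orders between 1093 and 3640
-/

set_option autoImplicit false

namespace Cfsg.Agent.H28.Mid

open Subgroup MulAction H28.Range6232

variable {G : Type*} [Group G] [Finite G]

theorem unique_sylow_centralizer {p q K : ℕ} [hp : Fact p.Prime] [hq : Fact q.Prime]
    (hpq : p ≠ q) (P : Sylow p G) (hP : Nat.card (P : Subgroup G) = p)
    (hQ : ∀ Q : Sylow q G, Nat.card (Q : Subgroup G) = q)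
    (hC : Nat.card (centralizer ((P : Subgroup G) : Set G)) = p * K) (hdvd : q ∣ K)
    (hK : ∀ d ∈ (K / q).divisors, d % q = 1 → d = 1) :
    ∃! Q : Sylow q G, (Q : Subgroup G) ≤ centralizer ((P : Subgroup G) : Set G) := by
  set C := centralizer ((P : Subgroup G) : Set G) with hCdef
  obtain ⟨Q, z, hQC, -, -, -⟩ := exists_sylow_le hQ C (hC ▸ dvd_mul_of_dvd_right hdvd p)
  refine ⟨Q, hQC, fun Q' hQ'C => ?_⟩
  let S : Sylow q C := Q.subtype hQC
  have hone : Nat.card (Sylow q C) = 1 := by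
    have hmul := H30.card_sylow_mul_normalizer q S
    have : IsCyclic (P : Subgroup G) := isCyclic_of_prime_card hP
    have : IsMulCommutative (P : Subgroup G) := IsCyclic.isMulCommutative
    have hPC : (P : Subgroup G) ≤ C := le_centralizer _
    have hPN : (P : Subgroup G).subgroupOf C ≤ normalizer ((S : Subgroup C) : Set C) := by
      intro x hx
      refine centralizer_le_normalizer _ (mem_centralizer_iff.mpr fun y _ => Subtype.ext ?_)
      exact (mem_centralizer_iff.mp y.2 x.1 hx).symm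
    have h1 : p ∣ Nat.card (normalizer ((S : Subgroup C) : Set C)) :=
      (dvd_of_eq (((Nat.card_congr (subgroupOfEquivOfLe hPC).toEquiv).trans hP).symm)).trans
        (card_dvd_of_le hPN)
    have h2 : q ∣ Nat.card (normalizer ((S : Subgroup C) : Set C)) :=
      (dvd_of_eq (((Nat.card_congr (subgroupOfEquivOfLe hQC).toEquiv).trans (hQ Q)).symm)).trans
        (card_dvd_of_le (by
          rw [← Sylow.coe_subtype Q (h := hQC)]
          exact le_normalizer))
    obtain ⟨j, hj⟩ := Nat.Coprime.mul_dvd_of_dvd_of_dvd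
      ((Nat.coprime_primes hp.out hq.out).mpr hpq) h1 h2
    obtain ⟨k, hk⟩ := hdvd
    rw [hj, show Nat.card C = p * K from hC, hk,
      show Nat.card (Sylow q C) * (p * q * j) = p * q * (Nat.card (Sylow q C) * j) by ring,
      show p * (q * k) = p * q * k by ring] at hmul
    have h3 := Nat.eq_of_mul_eq_mul_left (Nat.mul_pos hp.out.pos hq.out.pos) hmul
    have hk0 : k ≠ 0 := by
      rintro rfl
      exact absurd (hC.trans (by rw [hk, mul_zero, mul_zero])) Nat.card_pos.ne'
    refine hK _ ?_ ?_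
    · rw [hk, Nat.mul_div_cancel_left _ hq.out.pos]
      exact Nat.mem_divisors.mpr ⟨⟨j, h3.symm⟩, hk0⟩
    · have := card_sylow_modEq_one q C
      rwa [Nat.ModEq, Nat.mod_eq_of_lt hq.out.one_lt] at this
  have := (Nat.card_eq_one_iff_unique.mp hone).1
  exact Sylow.subtype_injective (hP := hQ'C) (hQ := hQC) (Subsingleton.elim _ _)

/-- If the Sylow subgroups for two primes determine each other by commuting, their numbers agree. -/
theorem card_sylow_eq_of_unique {p q : ℕ} [Fact p.Prime] [Fact q.Prime]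
    (h1 : ∀ P : Sylow p G,
      ∃! Q : Sylow q G, (Q : Subgroup G) ≤ centralizer ((P : Subgroup G) : Set G))
    (h2 : ∀ Q : Sylow q G,
      ∃! P : Sylow p G, (P : Subgroup G) ≤ centralizer ((Q : Subgroup G) : Set G)) :
    Nat.card (Sylow p G) = Nat.card (Sylow q G) := by
  choose f hf hfu using h1
  choose g hg hgu using h2
  exact Nat.card_congr ⟨f, g, fun P => (hgu _ P (le_centralizer_iff.mp (hf P))).symm,
    fun Q => (hfu _ Q (le_centralizer_iff.mp (hg Q))).symm⟩

variable [IsSimpleGroup G]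

/-- Commuting Sylow subgroups of prime orders with the option lists forced to disagree. -/
theorem false_of_counts (hG : ¬ IsMulCommutative G) {p q m m' : ℕ} [hp : Fact p.Prime]
    [hq : Fact q.Prime] (hp2 : p ≠ 2) (hq2 : q ≠ 2) (hpq : p ≠ q) (hcard : Nat.card G = p * m)
    (hm : ¬ p ∣ m) (hcard' : Nat.card G = q * m') (hm' : ¬ q ∣ m')
    {n n' e e' K K' : ℕ} (P : Sylow p G) (Q : Sylow q G) (hd : PrimeData p m P n e K)
    (hd' : PrimeData q m' Q n' e' K')
    (hK : q ∣ K) (hK' : p ∣ K') (h1 : ∀ d ∈ (K / q).divisors, d % q = 1 → d = 1)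
    (h2 : ∀ d ∈ (K' / p).divisors, d % p = 1 → d = 1) (hne : n ≠ n') : False := by
  obtain ⟨hn, -, -, -, -, -, -, -, hC, -, -, -⟩ := hd
  obtain ⟨hn', -, -, -, -, -, -, -, hC', -, -, -⟩ := hd'
  have hP : ∀ S : Sylow p G, Nat.card (S : Subgroup G) = p :=
    fun S => (prime_options hG p m hp2 hcard hm S).1
  have hQ : ∀ S : Sylow q G, Nat.card (S : Subgroup G) = q :=
    fun S => (prime_options hG q m' hq2 hcard' hm' S).1
  have conj : ∀ {r : ℕ} [Fact r.Prime] (S T : Sylow r G),
      Nat.card (centralizer ((S : Subgroup G) : Set G)) =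
        Nat.card (centralizer ((T : Subgroup G) : Set G)) := by
    intro r _ S T
    obtain ⟨g, rfl⟩ := exists_smul_eq G S T
    refine (Nat.card_congr (equivMapOfInjective _ (MulAut.conj g).toMonoidHom (MulAut.conj g).injective).toEquiv).trans ?_
    refine congrArg (fun H : Subgroup G => Nat.card H) ?_
    rw [Sylow.coe_subgroup_smul]
    ext y
    simp only [mem_map, mem_centralizer_iff, SetLike.mem_coe, MulEquiv.coe_toMonoidHom]
    constructor
    · rintro ⟨w, hw, rfl⟩ _ ⟨s, hs, rfl⟩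
      simp only [MulDistribMulAction.toMonoidEnd_apply, MulDistribMulAction.toMonoidHom_apply,
        MulAut.smul_def]
      rw [← map_mul, ← map_mul, hw s hs]
    · intro hy
      refine ⟨(MulAut.conj g).symm y, fun s hs => ?_, (MulAut.conj g).apply_symm_apply y⟩
      apply (MulAut.conj g).injective
      rw [map_mul, map_mul, MulEquiv.apply_symm_apply]
      exact hy _ ⟨s, hs, rfl⟩
  refine hne (hn.symm.trans ((card_sylow_eq_of_unique ?_ ?_).trans hn'))
  · exact fun S => unique_sylow_centralizer hpq S (hP S) hQ ((conj S P).trans hC) hK h1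
  · exact fun S => unique_sylow_centralizer hpq.symm S (hQ S) hP ((conj S Q).trans hC') hK' h2

/-- Sylow subgroups of order `p ^ 2` in number not congruent to one modulo `p ^ 2`. -/
theorem false_of_square (hG : ¬ IsMulCommutative G) (p m : ℕ) (hp : p.Prime) (hp2 : p ≠ 2)
    (hcard : Nat.card G = p ^ 2 * m) (hm : ¬ p ∣ m)
    (h1 : ∀ s ∈ sylowOpts p (p ^ 2 * m) m, s % p ^ 2 ≠ 1 ∨ s = m)
    (h2 : ∀ c ∈ subOpts (p ^ 2 * m) (p ^ 2), ∀ k < m + 1, k % p = 1 → 1 < k → k * p ^ 2 ∣ c.1 →
      c.1 = 2 * (c.1 / 2) ∧ (c.1 / 2) % 2 = 1 ∧ k % 2 = 0) : False := by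
  have := Fact.mk hp
  have hopt := sylow_options hG p 2 m hcard (by norm_num) hm
  rcases h1 _ hopt with hn | hn
  · obtain ⟨d, Q, R, hd, -, -, hne, -, hQ, hQH, hRH⟩ := exists_common_element hcard hm hn
    obtain ⟨k, hk, hkp, hk1, -, hdvd⟩ := sylow_count_two Q R hne _ hQH hRH
    have hd1 : d ≠ 1 := fun hh => hp.one_lt.ne (by rw [← hd, hh, orderOf_one])
    rw [hQ] at hdvd
    have hmem := mem_subOpts hG hcard _ (centralizer_ne_top hG hd1)
      ((dvd_mul_left (p ^ 2) k).trans hdvd)
    have hkm : k < m + 1 := by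
      refine Nat.lt_succ_of_le (Nat.le_of_mul_le_mul_right (c := p ^ 2) ?_ (pow_pos hp.pos 2))
      rw [mul_comm m, ← hcard]
      exact Nat.le_of_dvd Nat.card_pos (hdvd.trans (card_subgroup_dvd_card _))
    obtain ⟨heq, hodd, heven⟩ := h2 _ hmem k hkm hkp hk1 hdvd
    exact odd_card_sylow hp2 heq (by omega) (hk ▸ Nat.dvd_of_mod_eq_zero heven)
  · refine normalizer_card_ne hG (default : Sylow p G) (H30.card_sylow_subgroup _ hcard hm) ?_
    have h := H30.card_sylow_mul_normalizer p (default : Sylow p G)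
    rw [hn, hcard, mul_comm (p ^ 2) m] at h
    refine Nat.eq_of_mul_eq_mul_left (Nat.pos_of_ne_zero ?_) h
    rintro rfl
    exact hm (dvd_zero p)

/-- The data of a self-centralising Sylow subgroup with automizer of order two, with parity and
column bound. -/
theorem data_of_two (hG : ¬ IsMulCommutative G) {p n : ℕ} [hp : Fact p.Prime] (hp5 : 5 ≤ p)
    (hn : Nat.card G = n) (P : Sylow p G) (hP : Nat.card (P : Subgroup G) = p)
    (hC : Nat.card (centralizer ((P : Subgroup G) : Set G)) = p)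
    (hN : Nat.card (normalizer ((P : Subgroup G) : Set G)) = p * 2) :
    ∃ x : ℤ, 2 ≤ x.natAbs ∧ (p : ℤ) ∣ x + 1 ∧ x.natAbs ∣ n ∧ (1 - x).natAbs ∣ n ∧
      2 ≤ (1 - x).natAbs ∧ x ^ 2 + ((p - 1) / 2 : ℕ) * (1 - x) ^ 2 < (n : ℤ) ∧
      ∀ u : G, orderOf u = 2 → ∃ (A : ℤ) (L : ℕ), |A| < |x| ∧ (2 : ℤ) ∣ x - A ∧
        1 + A ^ 2 + ((p - 1) / 2 : ℕ) * (1 - A) ^ 2 ≤
          (Nat.card (centralizer ({u} : Set G)) : ℤ) ∧
        (n : ℤ) * (x - A) ^ 2 =
          L * (Nat.card (centralizer ({u} : Set G)) : ℤ) ^ 2 * (x * (x - 1)) := by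
  let _ : Fintype G := Fintype.ofFinite G
  obtain ⟨z, hz, hCz, hE⟩ := H30.exists_self_centralizing p 2 P hP hC hN
  have hodd : Odd p := hp.out.odd_of_ne_two (by omega)
  obtain ⟨j, hj⟩ := hodd
  have := involution_data_of_two hG (by omega) hz hCz ((p - 1) / 2) hE (by omega) (by omega)
  rw [hn] at this
  exact this

end Cfsg.Agent.H28.Mid
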